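import Cfsg.Agent.H911.TD.KillII
import Cfsg.Agent.H884.NA.BaseNA
import Cfsg.Agent.H351.RG.NiX
import Cfsg.Agent.LFourA.KlOAbs
import Cfsg.Agent.H824.ProdLem

/-!
# S3509, `³D₄(q)`, outer automorphisms of the second class: `MTwo` from a base pair (helper922)

`C` the fixed points of `x₀`, `Base r C X Y P Q T`, `X, Y` the images of the unitriangular groups of `SL₂(q)`, `q ≥ 4`.

* `mtwo_of_base` : `MTwo x₀ Φ r`, `M = ⟨X ^ C⟩`.
-/

set_option autoImplicit false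
set_option linter.unusedSectionVars false

namespace Cfsg.Agent.H922.RG

open Cfsg Cfsg.Agent.H398.RG Cfsg.Agent.H884.NA Cfsg.Agent.H873.RG Cfsg.Agent.H911.TD
open Cfsg.Agent.ChevalleyStructure.SL2Hom (up lo mem_closure_SL2)

variable {K₀ : Type} [Group K₀]

/-- the fixed points -/
def Cx (x₀ : MulAut K₀) : Subgroup K₀ where
  carrier := {y | x₀ y = y}
  one_mem' := map_one x₀
  mul_mem' := by
    intro a b ha hb
    change x₀ (a * b) = a * b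
    rw [map_mul, show x₀ a = a from ha, show x₀ b = b from hb]
  inv_mem' := by
    intro a ha
    change x₀ a⁻¹ = a⁻¹
    rw [map_inv, show x₀ a = a from ha]

theorem mem_Cx {x₀ : MulAut K₀} {y : K₀} : y ∈ Cx x₀ ↔ x₀ y = y := Iff.rfl

/-- the range of the homomorphism of `ImgH` -/
theorem imgH_range {G : Type*} [Group G] {q : ℕ} {X X' : Subgroup G} (h : ImgH q X X') :
    ∃ (F : Type) (_ : Field F) (_ : Fintype F) (φ : Matrix.SpecialLinearGroup (Fin 2) F →* G), Fintype.card F = q ∧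
      φ.range = X ⊔ X' := by
  obtain ⟨F, _, _, φ, hF, h1, h2, h3⟩ := h
  refine ⟨F, _, _, φ, hF, le_antisymm ?_ (sup_le ?_ ?_)⟩
  · rintro _ ⟨A, rfl⟩
    have h4 : Subgroup.closure (Set.range (up (F := F)) ∪ Set.range (lo (F := F))) ≤ (X ⊔ X').comap φ := by
      rw [Subgroup.closure_le]
      rintro _ (⟨a, rfl⟩ | ⟨a, rfl⟩)
      · exact Subgroup.mem_sup_left ((h1 _).2 ⟨a, rfl⟩)
      · exact Subgroup.mem_sup_right ((h2 _).2 ⟨a, rfl⟩)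
    exact h4 (mem_closure_SL2 A)
  · intro y hy
    obtain ⟨t, rfl⟩ := (h1 y).1 hy
    exact ⟨_, rfl⟩
  · intro y hy
    obtain ⟨t, rfl⟩ := (h2 y).1 hy
    exact ⟨_, rfl⟩

/-- the condition for `q ≥ 4` -/
theorem cond_of_img {G : Type*} [Group G] {r : ℕ} [Fact r.Prime] {C X Y P Q T : Subgroup G} [Finite C]
    (hB : Base r C X Y P Q T) {q : ℕ} (h4 : 4 ≤ q) (hI : ImgH q X Y) : Cond C X Y := by
  obtain ⟨k, hk, hY⟩ := hB.conjY
  refine cond_of_perfect (p := r) hB.leX (hY ▸ cj_le_MK hk) hB.pgrp ?_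
  obtain ⟨F, _, _, φ, hF, hφ⟩ := imgH_range hI
  rw [← hφ, MonoidHom.range_eq_map, ← Subgroup.map_commutator]
  have h5 : commutator (Matrix.SpecialLinearGroup (Fin 2) F) = ⊤ :=
    Cfsg.Agent.TwoFusion.SLTwoFacts.commutator_eq_top (by rw [hF]; omega)
  rw [commutator_def] at h5
  rw [h5]

/-- `(q, k) ∈ {(4, 5), (5, 5), (9, 6)}`, `|P| ∤ 1440` -/
theorem not_exc_of {Y : Type*} [Group Y] {M P : Subgroup Y} [Finite M] (hperf : ⁅M, M⁆ = M)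
    (hPn : ∀ g ∈ P, ∀ x ∈ M, g * x * g⁻¹ ∈ M)
    (hPc : ∀ g ∈ P, (∀ x ∈ M, g * x = x * g) → g = 1) {q k : ℕ} (hP : ¬ Nat.card P ∣ 1440)
    (h : (q = 4 ∧ k = 5) ∨ (q = 5 ∧ k = 5) ∨ (q = 9 ∧ k = 6)) :
    ¬ Nonempty ((M ⧸ Subgroup.center M) ≃* alternatingGroup (Fin k)) := by
  rintro ⟨e⟩
  have h1 := H351.RG.card_dvd_aut hperf hPn hPc e
  have h5 : Nat.card (MulAut (alternatingGroup (Fin 5))) = 120 := by
    rw [← Nat.card_congr (Equiv.ofBijective _ (Cfsg.Agent.S2119.result 5 (by norm_num) (by norm_num))),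
      Nat.card_eq_fintype_card, Fintype.card_perm, Fintype.card_fin]
    decide
  rcases h with ⟨-, rfl⟩ | ⟨-, rfl⟩ | ⟨-, rfl⟩
  · rw [h5] at h1
    exact hP (h1.trans (by norm_num))
  · rw [h5] at h1
    exact hP (h1.trans (by norm_num))
  · rw [Cfsg.Agent.H824.ProdLem.card_aut_a6] at h1
    exact hP h1

/-- `M / Z(M)` is simple, nonabelian, not alternating, `q ≥ 4`: the exceptional pairs are excluded by a subgroup `R` of `C`,
`|R| ∤ 1440`, such that no element `≠ 1` of `R` centralises `M` -/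
theorem nsa_of_base' {G : Type*} [Group G] {r : ℕ} [Fact r.Prime] {C X Y P Q T : Subgroup G} [Finite C]
    (hB : Base r C X Y P Q T) {q e : ℕ} (hq : q = r ^ e) (h4 : 4 ≤ q) (hI : ImgH q X Y)
    (hR : q = 4 ∨ q = 5 ∨ q = 9 → ∃ R : Subgroup G, (∀ g ∈ R, ∀ m ∈ MK C X, g * m * g⁻¹ ∈ MK C X) ∧
      ¬ Nat.card R ∣ 1440 ∧ ∀ g ∈ R, (∀ m ∈ MK C X, g * m = m * g) → g = 1) :
    NSA (MK C X ⧸ Subgroup.center (MK C X)) := by
  have hc := cond_of_img hB h4 hI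
  obtain ⟨-, -, hMC, -, hperf, h1, h2⟩ := hB.all hc
  refine ⟨h1, h2, ?_⟩
  rintro ⟨n, hn, ⟨f⟩⟩
  by_cases hex : ExcAlt q n
  · have hfM : Finite (MK C X) := Finite.of_injective _ (Subgroup.inclusion_injective hMC)
    have h5 : (q = 4 ∧ n = 5) ∨ (q = 5 ∧ n = 5) ∨ (q = 9 ∧ n = 6) := by
      rcases hex with h | h | h | h
      · exact Or.inl h
      · exact Or.inr (Or.inl h)
      · exact Or.inr (Or.inr h)
      · omega
    obtain ⟨R, hRC, hRc, hR1⟩ := hR (by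
      rcases h5 with h | h | h
      · exact Or.inl h.1
      · exact Or.inr (Or.inl h.1)
      · exact Or.inr (Or.inr h.1))
    exact not_exc_of (P := R) hperf hRC hR1 hRc h5 ⟨f⟩
  · exact not_alt_base hB hq hI hn hex (QuotientGroup.mk' _) (QuotientGroup.mk'_surjective _)
      (by rw [QuotientGroup.ker_mk']) f

/-- `q ^ 3 ∤ 1440` -/
theorem cube_not_dvd {q : ℕ} (h : q = 4 ∨ q = 5 ∨ q = 9) : ¬ q ^ 3 ∣ 1440 := by
  rcases h with rfl | rfl | rfl <;> norm_num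

/-- the same with a subgroup `R` of order `q ^ 3` -/
theorem nsa_of_base {G : Type*} [Group G] {r : ℕ} [Fact r.Prime] {C X Y P Q T : Subgroup G} [Finite C]
    (hB : Base r C X Y P Q T) {q e : ℕ} (hq : q = r ^ e) (h4 : 4 ≤ q) (hI : ImgH q X Y)
    (hR : q = 4 ∨ q = 5 ∨ q = 9 → ∃ R : Subgroup G, (∀ g ∈ R, ∀ m ∈ MK C X, g * m * g⁻¹ ∈ MK C X) ∧
      Nat.card R = q ^ 3 ∧ ∀ g ∈ R, (∀ m ∈ MK C X, g * m = m * g) → g = 1) :
    NSA (MK C X ⧸ Subgroup.center (MK C X)) :=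
  nsa_of_base' hB hq h4 hI fun h => by
    obtain ⟨R, h1, h2, h3⟩ := hR h
    exact ⟨R, h1, h2 ▸ cube_not_dvd h, h3⟩

/-- **`MTwo` from a base pair**, `R` any group of fixed points with `|R| ∤ 1440` -/
theorem mtwo_of_base' [Finite K₀] {x₀ : MulAut K₀} {F : Type} [Field F] (Φ : Matrix.SpecialLinearGroup (Fin 2) F →* K₀)
    {r : ℕ} [Fact r.Prime] {X Y P Q T : Subgroup K₀} (hB : Base r (Cx x₀) X Y P Q T) {q e : ℕ} (hq : q = r ^ e)
    (h4 : 4 ≤ q) (hI : ImgH q X Y)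
    (hR : q = 4 ∨ q = 5 ∨ q = 9 → ∃ R ≤ Cx x₀, ¬ Nat.card R ∣ 1440)
    (hC : ∀ y, x₀ y = y → (∀ m ∈ MK (Cx x₀) X, y * m = m * y) → y = 1)
    (hΦ : ∀ u ∈ X, ∀ B, u * Φ B = Φ B * u) : MTwo x₀ Φ r := by
  have hc := cond_of_img hB h4 hI
  obtain ⟨hXM, -, hMC, hn, hperf, -, -⟩ := hB.all hc
  have hNSA := nsa_of_base' hB hq h4 hI (fun h => by
    obtain ⟨R, hRC, hRc⟩ := hR h
    exact ⟨R, fun g hg m hm => conj_MK (hRC hg) hm, hRc, fun g hg hm => hC g (hRC hg) hm⟩)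
  refine ⟨MK (Cx x₀) X, fun m hm => hMC hm, fun y hy m hm => conj_MK (show y ∈ Cx x₀ from hy) hm, hperf, hNSA, hC, ?_⟩
  obtain ⟨⟨x, hx⟩, hx1⟩ := (Subgroup.ne_bot_iff_exists_ne_one).1 hB.ne
  exact ⟨x, hXM hx, fun h => hx1 (Subtype.ext h), (imgH_props hq hI).2.2 x hx, hΦ x hx⟩

/-- **`MTwo` from a base pair.** -/
theorem mtwo_of_base [Finite K₀] {x₀ : MulAut K₀} {F : Type} [Field F] (Φ : Matrix.SpecialLinearGroup (Fin 2) F →* K₀)
    {r : ℕ} [Fact r.Prime] {X Y P Q T : Subgroup K₀} (hB : Base r (Cx x₀) X Y P Q T) {q e : ℕ} (hq : q = r ^ e)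
    (h4 : 4 ≤ q) (hI : ImgH q X Y)
    (hR : q = 4 ∨ q = 5 ∨ q = 9 → ∃ R ≤ Cx x₀, Nat.card R = q ^ 3)
    (hC : ∀ y, x₀ y = y → (∀ m ∈ MK (Cx x₀) X, y * m = m * y) → y = 1)
    (hΦ : ∀ u ∈ X, ∀ B, u * Φ B = Φ B * u) : MTwo x₀ Φ r :=
  mtwo_of_base' Φ hB hq h4 hI (fun h => by
    obtain ⟨R, h1, h2⟩ := hR h
    exact ⟨R, h1, h2 ▸ cube_not_dvd h⟩) hC hΦ

/-- **`MTwo` from a base pair**, `K` a group of fixed points, `⟨X ^ K⟩` normalised by all fixed points -/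
theorem mtwo_of_baseN [Finite K₀] {x₀ : MulAut K₀} {F : Type} [Field F] (Φ : Matrix.SpecialLinearGroup (Fin 2) F →* K₀)
    {r : ℕ} [Fact r.Prime] {K X Y P Q T : Subgroup K₀} (hB : Base r K X Y P Q T) (hK : ∀ k ∈ K, x₀ k = k)
    (hN : ∀ y, x₀ y = y → ∀ m ∈ MK K X, y * m * y⁻¹ ∈ MK K X) {q e : ℕ} (hq : q = r ^ e)
    (h4 : 4 ≤ q) (hI : ImgH q X Y)
    (hR : q = 4 ∨ q = 5 ∨ q = 9 → ∃ R : Subgroup K₀, (∀ g ∈ R, x₀ g = g) ∧ Nat.card R = q ^ 3)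
    (hC : ∀ y, x₀ y = y → (∀ m ∈ MK K X, y * m = m * y) → y = 1)
    (hΦ : ∀ u ∈ X, ∀ B, u * Φ B = Φ B * u) : MTwo x₀ Φ r := by
  have hc := cond_of_img hB h4 hI
  obtain ⟨hXM, -, hMC, hn, hperf, -, -⟩ := hB.all hc
  have hNSA := nsa_of_base hB hq h4 hI (fun h => by
    obtain ⟨R, hRC, hRc⟩ := hR h
    exact ⟨R, fun g hg m hm => hN g (hRC g hg) m hm, hRc, fun g hg hm => hC g (hRC g hg) hm⟩)
  refine ⟨MK K X, fun m hm => hK m (hMC hm), hN, hperf, hNSA, hC, ?_⟩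
  obtain ⟨⟨x, hx⟩, hx1⟩ := (Subgroup.ne_bot_iff_exists_ne_one).1 hB.ne
  exact ⟨x, hXM hx, fun h => hx1 (Subtype.ext h), (imgH_props hq hI).2.2 x hx, hΦ x hx⟩

end Cfsg.Agent.H922.RG
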