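import Cfsg.Agent.H922.RG.SpB
import Cfsg.Agent.H28.RG.Form

/-!
# S3509, `³D₄(q)`, box T1b: the root system of a toral form of an element of `A2Elt` (helper922)

`f : TorForm m y`, `A2Elt m y` :
* `Sx_conj` : conjugate elements of the torus are conjugate under the Weyl group;
* `exists_ab` : the roots trivial on `f.t` are `± a, ± b, ± (a + b)`, `a, b > 0`, and `θ` fixes or swaps `a, b`;
* if `q = 2`, `y ^ 7 = 1`, then `θ` fixes `a, b`.
-/

set_option autoImplicit false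
set_option linter.unusedSectionVars false

namespace Cfsg.Agent.H922.RG

open CoxeterSystem Cfsg Cfsg.Lie Cfsg.Lie.ChevalleyDatum
open Cfsg.Agent.ChevalleyStructure Cfsg.Agent.ChevalleyStructure.Elts Cfsg.Agent.ChevalleyStructure.CoxeterGeom
  Cfsg.Agent.ChevalleyStructure.CoxeterGeomTypes Cfsg.Agent.ChevalleyStructure.NPerm
open Cfsg.Agent.Tits.Roots Cfsg.Agent.Tits.Core Cfsg.Agent.Nodes Cfsg.Agent.Nodes.Reps Cfsg.Agent.Nodes.BNOf
  Cfsg.Agent.Nodes.RGDChev Cfsg.Agent.Nodes.Bruhat Cfsg.Agent.Nodes.NormalForm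
open Cfsg.Agent.KFacts.RgdField Cfsg.Agent.KFacts.RgdChevCoord
open Cfsg.Agent.BpExc Cfsg.Agent.BpExc.TorCent Cfsg.Agent.BpExc.TorChev Cfsg.Agent.BpExc.Tow
  Cfsg.Agent.BpExc.TowChev Cfsg.Agent.BpExc.Fr Cfsg.Agent.BpExc.Pair Cfsg.Agent.BpExc.LangFr Cfsg.Agent.GpExc.Field
  Cfsg.Agent.BpExc.NInst Cfsg.Agent.BpExc.NChev
open Cfsg.Agent.H469.Exc Cfsg.Agent.H316.U6 Cfsg.Agent.H169.RG Cfsg.Agent.H28.RG Cfsg.Agent.H864.TD
open Cfsg.Agent.H129.TorusChar Cfsg.Agent.H129.TriD4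
open Cfsg.Agent.H378.OmD4 (V Mx bas pos reps Tab fn_add fn_sm exists_fn fn_inj fn_bas exists_tab mem_pos)

universe u v

/-- the relation `Sx` of conjugate elements of the torus -/
theorem Sx_conj {D : ChevalleyDatum} {l : ℕ} {M : CoxeterMatrix (Fin l)} (hp : IsType D l M) {r : ℕ} [Fact r.Prime]
    {t₁ t₂ g : ↥(D.group (KK r))} (h1 : t₁ ∈ TT D (KK r)) (h2 : t₂ ∈ TT D (KK r)) (hg : g * t₁ = t₂ * g) :
    ∃ w : M.Group, ∀ x, rep M.toCoxeterSystem hp.isCartan w x ∈ Sx M.toCoxeterSystem hp.isCartan (ch hp) t₂ ↔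
      x ∈ Sx M.toCoxeterSystem hp.isCartan (ch hp) t₁ := by
  have := finite_W hp M.toCoxeterSystem
  have hTL := TL_eq (k := KK r) hp (locFin r)
  have H := tow (k := KK r) hp M.toCoxeterSystem (locFin r) r
  have hG := GG_eq_top (k := KK r) hp M.toCoxeterSystem (locFin r)
  obtain ⟨w, u, hu, k, hk, v, hv, rfl⟩ := H.exists_normal_form (g := g) (by rw [hG]; exact Subgroup.mem_top g)
  obtain ⟨-, hkt, -⟩ := conj_formL H (by rw [hTL]; exact h1) (by rw [hTL]; exact h2) hu hk hv hg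
  have hk' : Rp M.toCoxeterSystem (nsysTT hp M.toCoxeterSystem (locFin r) r) w k := by
    have key : ∀ (T : Subgroup ↥(D.group (KK r))) (h1 : NSys M T (nc hp (KK r))) (h2 : T = TT D (KK r)),
        Rp M.toCoxeterSystem h1 w k → Rp M.toCoxeterSystem (nsysTT hp M.toCoxeterSystem (locFin r) r) w k := by
      intro T h1 h2 h3
      subst h2
      exact h3
    exact key _ _ hTL hk
  refine ⟨w, fun x => ?_⟩
  have e : k * t₁ * k⁻¹ = t₂ := by rw [hkt]; group
  have h3 : IsRoot M.toCoxeterSystem hp.isCartan (rep M.toCoxeterSystem hp.isCartan w x) ↔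
      IsRoot M.toCoxeterSystem hp.isCartan x := by
    constructor
    · intro h
      have := h.act w⁻¹
      rwa [← rep_mul_apply, inv_mul_cancel, map_one, Module.End.one_apply] at this
    · exact fun h => h.act w
  have h4 := cX_rp hp M.toCoxeterSystem (locFin r) r hk' h1 x
  rw [e] at h4
  constructor
  · rintro ⟨hx, hx1⟩
    have hx' := h3.1 hx
    refine ⟨hx', ?_⟩
    rw [← cX_root hp M.toCoxeterSystem h1 hx', ← h4, cX_root hp M.toCoxeterSystem h2 hx]
    exact hx1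
  · rintro ⟨hx, hx1⟩
    have hx' := h3.2 hx
    refine ⟨hx', ?_⟩
    rw [← cX_root hp M.toCoxeterSystem h2 hx', h4, cX_root hp M.toCoxeterSystem h1 hx]
    exact hx1

theorem Six.comm {a b c : Fin 4 → ℤ} (h : Six a b c) : Six b a c := by
  unfold Six at h ⊢
  rw [add_comm b a]
  tauto

theorem Six.rot {a b c : Fin 4 → ℤ} (h : Six a b c) : Six (a + b) (-b) c := by
  unfold Six at h ⊢
  rw [show a + b + -b = a by abel, neg_neg]
  tauto

theorem Six.rot' {a b c : Fin 4 → ℤ} (h : Six (a + b) (-b) c) : Six a b c := by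
  have := h.rot
  rw [show a + b + -b = a by abel, neg_neg] at this
  exact this

theorem Six.negneg {a b c : Fin 4 → ℤ} (h : Six a b c) : Six (-a) (-b) c := by
  unfold Six at h ⊢
  rw [show -a + -b = -(a + b) by abel, neg_neg, neg_neg, neg_neg]
  tauto

theorem Six.negneg' {a b c : Fin 4 → ℤ} (h : Six (-a) (-b) c) : Six a b c := by
  have := h.negneg
  rwa [neg_neg, neg_neg] at this

/-- a positive basis -/
theorem exists_posbase {W : Type*} [Group W] (cs : CoxeterSystem coxeterD4 W) {a b : Fin 4 → ℤ}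
    (ha : IsRoot cs RGDTwD4.hp.isCartan a) (hb : IsRoot cs RGDTwD4.hp.isCartan b)
    (hab : IsRoot cs RGDTwD4.hp.isCartan (a + b)) :
    ∃ a' b', IsRoot cs RGDTwD4.hp.isCartan a' ∧ IsRoot cs RGDTwD4.hp.isCartan b' ∧
      IsRoot cs RGDTwD4.hp.isCartan (a' + b') ∧ 0 ≤ a' ∧ 0 ≤ b' ∧ ∀ c, Six a' b' c ↔ Six a b c := by
  have key : ∀ a b : Fin 4 → ℤ, IsRoot cs RGDTwD4.hp.isCartan a → IsRoot cs RGDTwD4.hp.isCartan b →
      IsRoot cs RGDTwD4.hp.isCartan (a + b) → 0 ≤ a → b ≤ 0 →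
      ∃ a' b', IsRoot cs RGDTwD4.hp.isCartan a' ∧ IsRoot cs RGDTwD4.hp.isCartan b' ∧
        IsRoot cs RGDTwD4.hp.isCartan (a' + b') ∧ 0 ≤ a' ∧ 0 ≤ b' ∧ ∀ c, Six a' b' c ↔ Six a b c := by
    intro a b ha hb hab h0 h1
    rcases hab.pos_or_neg with h2 | h2
    · refine ⟨a + b, -b, hab, hb.neg, by rwa [show a + b + -b = a by abel], h2, neg_nonneg.2 h1, fun c => ?_⟩
      exact ⟨Six.rot', Six.rot⟩
    · refine ⟨-(a + b), a, hab.neg, ha, by rw [show -(a + b) + a = -b by abel]; exact hb.neg, neg_nonneg.2 h2, h0,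
        fun c => ?_⟩
      constructor
      · intro h
        have h3 := h.rot
        rw [show -(a + b) + a = -b by abel] at h3
        exact h3.negneg'.comm
      · intro h
        have h3 := h.comm.negneg
        have h4 : Six (-(a + b) + a) (-a) c := by rwa [show -(a + b) + a = -b by abel]
        exact h4.rot'
  rcases ha.pos_or_neg with h0 | h0 <;> rcases hb.pos_or_neg with h1 | h1
  · exact ⟨a, b, ha, hb, hab, h0, h1, fun c => Iff.rfl⟩
  · exact key a b ha hb hab h0 h1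
  · obtain ⟨a', b', h2, h3, h4, h5, h6, h7⟩ := key b a hb ha (by rwa [add_comm]) h1 h0
    exact ⟨a', b', h2, h3, h4, h5, h6, fun c => (h7 c).trans ⟨Six.comm, Six.comm⟩⟩
  · refine ⟨-a, -b, ha.neg, hb.neg, by rw [show -a + -b = -(a + b) by abel]; exact hab.neg, neg_nonneg.2 h0,
      neg_nonneg.2 h1, fun c => ⟨Six.negneg', Six.negneg⟩⟩

section

variable {r q : ℕ} [hr : Fact r.Prime] {K₀ : Type v} [Group K₀] {m : MData RGDTwD4.hp r q K₀}
  {y : ↥(chevD4.group (KK r))}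

/-- **The roots of a toral form.** -/
theorem exists_ab (f : TorForm m y) (hg : m.g = tri) (hy : A2Elt m y) :
    ∃ a b : Fin 4 → ℤ, IsRoot coxeterD4.toCoxeterSystem RGDTwD4.hp.isCartan a ∧
      IsRoot coxeterD4.toCoxeterSystem RGDTwD4.hp.isCartan b ∧
      IsRoot coxeterD4.toCoxeterSystem RGDTwD4.hp.isCartan (a + b) ∧ 0 ≤ a ∧ 0 ≤ b ∧
      (∀ c, c ∈ Sx coxeterD4.toCoxeterSystem RGDTwD4.hp.isCartan (ch RGDTwD4.hp) f.t ↔ Six a b c) ∧
      ((f.θ a = a ∧ f.θ b = b) ∨ (f.θ a = b ∧ f.θ b = a)) ∧ (q = 2 → y ^ 7 = 1 → f.θ a = a ∧ f.θ b = b) := by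
  classical
  obtain ⟨-, hy1, -, z, t, a₁, b₁, ht, hyz, hab₁, hS⟩ := hy
  -- the conjugation
  have e1 : (f.z⁻¹ * z) * t = f.t * (f.z⁻¹ * z) := by
    have h1 := f.eq
    have h2 : f.z * f.t * f.z⁻¹ = z * t * z⁻¹ := by rw [← h1, ← hyz]
    calc (f.z⁻¹ * z) * t = f.z⁻¹ * (z * t * z⁻¹) * z := by group
      _ = f.z⁻¹ * (f.z * f.t * f.z⁻¹) * z := by rw [h2]
      _ = f.t * (f.z⁻¹ * z) := by group
  obtain ⟨w, hw⟩ := Sx_conj RGDTwD4.hp ht f.mem e1
  have hrb : ∀ x, rep coxeterD4.toCoxeterSystem RGDTwD4.hp.isCartan w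
      (rep coxeterD4.toCoxeterSystem RGDTwD4.hp.isCartan w⁻¹ x) = x := by
    intro x
    rw [← rep_mul_apply, mul_inv_cancel, map_one, Module.End.one_apply]
  have hra : ∀ x, rep coxeterD4.toCoxeterSystem RGDTwD4.hp.isCartan w⁻¹
      (rep coxeterD4.toCoxeterSystem RGDTwD4.hp.isCartan w x) = x := by
    intro x
    rw [← rep_mul_apply, inv_mul_cancel, map_one, Module.End.one_apply]
  have ha₁ : IsRoot coxeterD4.toCoxeterSystem RGDTwD4.hp.isCartan a₁ := ((hS a₁).2 (Or.inl rfl)).1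
  have hb₁ : IsRoot coxeterD4.toCoxeterSystem RGDTwD4.hp.isCartan b₁ := ((hS b₁).2 (Or.inr (Or.inl rfl))).1
  have ha₂ := ha₁.act w
  have hb₂ := hb₁.act w
  have hab₂ := hab₁.act w
  rw [map_add] at hab₂
  have hS₂ : ∀ c, c ∈ Sx coxeterD4.toCoxeterSystem RGDTwD4.hp.isCartan (ch RGDTwD4.hp) f.t ↔
      Six (rep coxeterD4.toCoxeterSystem RGDTwD4.hp.isCartan w a₁)
        (rep coxeterD4.toCoxeterSystem RGDTwD4.hp.isCartan w b₁) c := by
    intro c
    have h1 := hw (rep coxeterD4.toCoxeterSystem RGDTwD4.hp.isCartan w⁻¹ c)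
    rw [hrb] at h1
    rw [h1, hS]
    have key : ∀ x, rep coxeterD4.toCoxeterSystem RGDTwD4.hp.isCartan w⁻¹ c = x ↔
        c = rep coxeterD4.toCoxeterSystem RGDTwD4.hp.isCartan w x := by
      intro x
      constructor
      · intro h; rw [← h, hrb]
      · intro h; rw [h, hra]
    simp only [key, map_neg, map_add]
    unfold Six
    tauto
  obtain ⟨a, b, ha, hb, hab, ha0, hb0, hSix⟩ := exists_posbase _ ha₂ hb₂ hab₂
  have hSS : ∀ c, c ∈ Sx coxeterD4.toCoxeterSystem RGDTwD4.hp.isCartan (ch RGDTwD4.hp) f.t ↔ Six a b c :=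
    fun c => (hS₂ c).trans (hSix c).symm
  -- positive roots
  have hpos3 : ∀ c, Six a b c → 0 ≤ c → c = a ∨ c = b ∨ c = a + b := by
    intro c hc h0
    have hab0 : 0 ≤ a + b := add_nonneg ha0 hb0
    rcases hc with h | h | h | h | h | h
    · exact Or.inl h
    · exact absurd (neg_nonpos.2 ha0) (by rw [← h]; exact fun h' => (h ▸ ha.neg : IsRoot _ _ c).not_pos_neg h0 h')
    · exact Or.inr (Or.inl h)
    · exact absurd (neg_nonpos.2 hb0) (by rw [← h]; exact fun h' => (h ▸ hb.neg : IsRoot _ _ c).not_pos_neg h0 h')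
    · exact Or.inr (Or.inr h)
    · exact absurd (neg_nonpos.2 hab0) (by rw [← h]; exact fun h' => (h ▸ hab.neg : IsRoot _ _ c).not_pos_neg h0 h')
  have hmem : ∀ c, Six a b c → 0 ≤ c → f.θ c = a ∨ f.θ c = b ∨ f.θ c = a + b := by
    intro c hc h0
    have h1 := (hSS c).2 hc
    exact hpos3 _ ((hSS _).1 ((f.stab c).2 h1)) (f.pos c h1 h0)
  have h_a := hmem a (Or.inl rfl) ha0
  have h_b := hmem b (Or.inr (Or.inr (Or.inl rfl))) hb0
  have h_ab := hmem (a + b) (Or.inr (Or.inr (Or.inr (Or.inr (Or.inl rfl))))) (add_nonneg ha0 hb0)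
  have hane : a ≠ 0 := ha.ne_zero
  have hbne : b ≠ 0 := hb.ne_zero
  have hnn : ∀ x y : Fin 4 → ℤ, 0 ≤ x → 0 ≤ y → y ≠ 0 → x + y ≠ 0 := by
    intro x y hx hy hy0 h
    apply hy0
    have h1 : y = -x := eq_neg_of_add_eq_zero_right h
    exact le_antisymm (by rw [h1]; exact neg_nonpos.2 hx) hy
  obtain ⟨va, hva, hva'⟩ := mem_pos coxeterD4.toCoxeterSystem ha ha0
  obtain ⟨vb, hvb, hvb'⟩ := mem_pos coxeterD4.toCoxeterSystem hb hb0
  obtain ⟨vc, hvc, hvc'⟩ := mem_pos coxeterD4.toCoxeterSystem hab (add_nonneg ha0 hb0)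
  have hθ : (f.θ a = a ∧ f.θ b = b) ∨ (f.θ a = b ∧ f.θ b = a) := by
    have hadd : f.θ (a + b) = f.θ a + f.θ b := map_add _ _ _
    have hinj : f.θ a ≠ f.θ b := by
      intro h
      have h1 := f.θ.injective h
      -- `2 a` is not a root
      refine ne_double va hva vc hvc (fn_inj ?_)
      rw [fn_add, hva', hvc']
      conv_rhs => rw [← h1]
    rcases h_a with h1 | h1 | h1 <;> rcases h_b with h2 | h2 | h2
    · exact absurd (h1.trans h2.symm) hinj
    · exact Or.inl ⟨h1, h2⟩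
    · exfalso
      rw [hadd, h1, h2] at h_ab
      rcases h_ab with h | h | h
      · exact hnn a b ha0 hb0 hbne (by simpa using h)
      · exact hnn a a ha0 ha0 hane (by
          have h5 : a + a + b = b := by rw [add_assoc]; exact h
          simpa using h5)
      · exact hane (by simpa using h)
    · exact Or.inr ⟨h1, h2⟩
    · exact absurd (h1.trans h2.symm) hinj
    · exfalso
      rw [hadd, h1, h2] at h_ab
      rcases h_ab with h | h | h
      · exact hnn b b hb0 hb0 hbne (by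
          have h5 : b + b + a = a := by rw [add_assoc, add_comm b a]; exact h
          simpa using h5)
      · exact hnn a b ha0 hb0 hbne (by simpa using h)
      · exact hbne (by simpa using h)
    · exfalso
      rw [hadd, h1, h2] at h_ab
      rcases h_ab with h | h | h
      · exact hnn b a hb0 ha0 hane (by
          have h5 : a + (b + a) = a := by rw [← add_assoc]; exact h
          simpa using h5)
      · exact hnn a a ha0 ha0 hane (by
          have h5 : a + a + b = b := by rw [show a + a + b = a + b + a by abel]; exact h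
          simpa using h5)
      · exact hane (by simpa using h)
    · exfalso
      rw [hadd, h1, h2] at h_ab
      rcases h_ab with h | h | h
      · exact hnn b b hb0 hb0 hbne (by
          have h5 : b + b + a = a := by rw [show b + b + a = a + b + b by abel]; exact h
          simpa using h5)
      · exact hnn a b ha0 hb0 hbne (by
          have h5 : a + b + b = b := h
          simpa using h5)
      · exact hbne (by simpa using h)
    · exact absurd (h1.trans h2.symm) hinj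
  refine ⟨a, b, ha, hb, hab, ha0, hb0, hSS, hθ, fun hq hy7 => ?_⟩
  rcases hθ with h | ⟨h1, h2⟩
  · exact h
  exfalso
  -- `q = 2`, swapped
  obtain ⟨e, he, hM⟩ := exists_tab coxeterD4.toCoxeterSystem f.w
  have hθM : ∀ x : V, f.θ x.fn = (e.1.ap x).fn := by
    intro x
    rw [theta_eq f hg]
    exact hM x
  have h3 : e.1.ap va = vb := fn_inj (by rw [← hθM, hva', h1, hvb'])
  have h4 : e.1.ap vb = va := fn_inj (by rw [← hθM, hvb', h2, hva'])
  have h5 : va.add vb = vc := fn_inj (by rw [fn_add, hva', hvb', hvc'])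
  have ht5 := t5 e he va hva vb hvb h3 h4 (by rw [h5]; exact hvc)
  have hmc := isMC_cX RGDTwD4.hp f.mem
  have hαt : f.α f.t = f.t := f.fix
  have hχa : cX RGDTwD4.hp f.t va.fn = 1 := by
    rw [hva', cX_root RGDTwD4.hp coxeterD4.toCoxeterSystem f.mem ha]
    exact ((hSS a).2 (Or.inl rfl)).2
  have hχb : cX RGDTwD4.hp f.t vb.fn = 1 := by
    rw [hvb', cX_root RGDTwD4.hp coxeterD4.toCoxeterSystem f.mem hb]
    exact ((hSS b).2 (Or.inr (Or.inr (Or.inl rfl)))).2
  have h7 : f.t ^ 7 = 1 := f.pow_eq_one hy7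
  have ht1 : f.t = 1 := by
    refine cX_inj RGDTwD4.hp f.mem (one_mem _) fun j => ?_
    rw [cX_one]
    have hj := ht5 j
    obtain ⟨c, -, d, -, hcd⟩ := hj
    have h8 := congrArg (fun v : V => cX RGDTwD4.hp f.t v.fn) hcd
    simp only [fn_add, fn_sm, ← hθM] at h8
    rw [hmc.add, hmc.add, hmc.zsmul, hmc.add, hmc.zsmul, hmc.zsmul, hχa, hχb, one_zpow, one_zpow, mul_one,
      chi_theta f f.mem hαt, chi_theta f f.mem hαt, fn_bas] at h8
    have hx0 : cX RGDTwD4.hp f.t (sr j) ≠ 0 := hmc.ne_zero _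
    have h11 : ∀ n : ℕ, cX RGDTwD4.hp (f.t ^ n) (sr j) = cX RGDTwD4.hp f.t (sr j) ^ n := by
      intro n
      induction n with
      | zero => rw [pow_zero, pow_zero, cX_one]
      | succ n ih => rw [pow_succ, pow_succ, cX_mul RGDTwD4.hp (pow_mem f.mem n) f.mem, ih]
    generalize cX RGDTwD4.hp f.t (sr j) = x at h8 hx0 h11 ⊢
    simp only [hq] at h8
    have h9 : x ^ 3 = 1 := by
      have e1 : (x ^ 2) ^ 2 * (x ^ 2) ^ (-1 : ℤ) * x = x ^ 3 := by
        rw [zpow_neg_one]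
        field_simp
      rw [← e1]
      exact h8
    have h10 : x ^ 7 = 1 := by
      rw [← h11, h7, cX_one]
    have h12 : x = x ^ 7 * ((x ^ 3) ^ 2)⁻¹ := by
      field_simp
    rw [h12, h10, h9]
    simp
  apply hy1
  rw [f.eq, ht1]
  group

end

end Cfsg.Agent.H922.RG
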