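import Cfsg.Agent.H922.RG.NiA
import Cfsg.Agent.H169.RG.ImgFr
import Cfsg.Agent.H398.RG.CondL
import Cfsg.Agent.H165.WL.FG
import Cfsg.Agent.LFourA.KlOAbs
import Cfsg.Agent.H380.RG.Zee

/-!
# S3509, `³D₄(q)`, box T1b: the base pair in the centraliser of an element of `A2Elt` (helper922)

`f : TorForm m y`, `a`, `b` as in `exists_ab`, `β = a + b`.
-/

set_option autoImplicit false
set_option linter.unusedSectionVars false

namespace Cfsg.Agent.H922.RG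

open CoxeterSystem Cfsg Cfsg.Lie Cfsg.Lie.ChevalleyDatum
open Cfsg.Agent.ChevalleyStructure Cfsg.Agent.ChevalleyStructure.Elts Cfsg.Agent.ChevalleyStructure.CoxeterGeom
  Cfsg.Agent.ChevalleyStructure.CoxeterGeomTypes Cfsg.Agent.ChevalleyStructure.NPerm
open Cfsg.Agent.Tits.Roots Cfsg.Agent.Tits.Core Cfsg.Agent.Nodes Cfsg.Agent.Nodes.Reps Cfsg.Agent.Nodes.BNOf
  Cfsg.Agent.Nodes.RGDChev Cfsg.Agent.Nodes.Bruhat Cfsg.Agent.Nodes.NormalForm Cfsg.Agent.Nodes.Coroot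
open Cfsg.Agent.KFacts.RgdField Cfsg.Agent.KFacts.RgdChevCoord Cfsg.Agent.KFacts.RgdSL
open Cfsg.Agent.BpExc Cfsg.Agent.BpExc.TorCent Cfsg.Agent.BpExc.TorChev Cfsg.Agent.BpExc.Tow
  Cfsg.Agent.BpExc.TowChev Cfsg.Agent.BpExc.Fr Cfsg.Agent.BpExc.Pair Cfsg.Agent.BpExc.LangFr Cfsg.Agent.GpExc.Field
  Cfsg.Agent.BpExc.NInst Cfsg.Agent.BpExc.NChev
open Cfsg.Agent.H469.Exc Cfsg.Agent.H316.U6 Cfsg.Agent.H169.RG Cfsg.Agent.H28.RG Cfsg.Agent.H441.RG
  Cfsg.Agent.H398.RG Cfsg.Agent.H864.TD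
open Cfsg.Agent.H129.TorusChar Cfsg.Agent.H129.TriD4
open Cfsg.Agent.H378.OmD4 (V Mx bas pos reps Tab fn_add fn_sm exists_fn fn_inj fn_bas exists_tab mem_pos)

universe u v

/-! ### the root system `D₄` -/

theorem no2 : ∀ u ∈ pos, ∀ w ∈ pos, (u.add w).add u ∉ pos := by decide +kernel

theorem no3 : ∀ u ∈ pos, u.add u ∉ pos := by decide +kernel

theorem exists_w_top {W : Type v} [Group W] (cs : CoxeterSystem coxeterD4 W) {β : Fin 4 → ℤ}
    (hβ : IsRoot cs RGDTwD4.hp.isCartan β) :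
    ∃ w : W, β = rep cs RGDTwD4.hp.isCartan w (vec chevD4 4 (chevD4.nroots - 1)) := by
  obtain ⟨j, hj, rfl⟩ := (isRoot_iff RGDTwD4.hp cs β).1 hβ
  have h1 := H165.WL.exists_w_of_chain RGDTwD4.hp cs H165.WL.LD [chevD4.nroots - 1] (by
    intro r hr
    rw [List.mem_singleton] at hr
    subst hr
    exact ⟨by decide, 1, by rw [map_one, Module.End.one_apply]⟩) H165.WL.chainD
  have h2 : ∀ j < chevD4.nroots, j = chevD4.nroots - 1 ∨ j ∈ H165.WL.LD := by decide +kernel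
  rcases h2 j hj with rfl | h3
  · exact ⟨1, by rw [map_one, Module.End.one_apply]⟩
  · exact (h1 j h3).2

theorem slD {W : Type v} [Group W] [Finite W] (cs : CoxeterSystem coxeterD4 W) : SL cs RGDTwD4.hp.isCartan := by
  intro x y hx hy
  refine SimplyLaced.cpr_symm cs _ ?_ ?_ hx hy
  · intro i j
    fin_cases i <;> fin_cases j <;> decide
  · intro i j
    fin_cases i <;> fin_cases j <;> decide

/-- the Cartan numbers -/
theorem cpr_sum_one {W : Type v} [Group W] [Finite W] (cs : CoxeterSystem coxeterD4 W) {a b : Fin 4 → ℤ}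
    (ha : IsRoot cs RGDTwD4.hp.isCartan a) (hb : IsRoot cs RGDTwD4.hp.isCartan b)
    (hab : IsRoot cs RGDTwD4.hp.isCartan (a + b)) (ha0 : 0 ≤ a) (hb0 : 0 ≤ b) :
    cpr cs RGDTwD4.hp.isCartan a (a + b) = 1 ∧ cpr cs RGDTwD4.hp.isCartan (a + b) a = 1 := by
  have hs := slD cs
  have h1 : b ≠ a := by
    rintro rfl
    obtain ⟨va, hva, hva'⟩ := mem_pos cs ha ha0
    obtain ⟨vc, hvc, hvc'⟩ := mem_pos cs hab (add_nonneg ha0 ha0)
    exact no3 va hva (by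
      have e : va.add va = vc := fn_inj (by rw [fn_add, hva', hvc'])
      rw [e]; exact hvc)
  have h2 : b ≠ -a := by
    rintro rfl
    exact hab.ne_zero (by simp)
  have h3 : a + b ≠ a := by
    intro h
    exact hb.ne_zero (by simpa using h)
  have h4 : a + b ≠ -a := by
    intro h
    have h5 : a + b ≤ 0 := by rw [h]; exact neg_nonpos.2 ha0
    exact hab.not_pos_neg (add_nonneg ha0 hb0) h5
  have h5 := (hs.abs_le hb ha h1 h2)
  have h6 := (hs.abs_le hab ha h3 h4)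
  have h7 := cpr_add cs RGDTwD4.hp.isCartan a b ha
  rw [cpr_self cs _ ha] at h7
  have h8 : cpr cs RGDTwD4.hp.isCartan (a + b) a = 1 := by omega
  exact ⟨by rw [hs a (a + b) ha hab]; exact h8, h8⟩

section

variable {r q : ℕ} [hr : Fact r.Prime] {K₀ : Type v} [Group K₀] {m : MData RGDTwD4.hp r q K₀}
  {y : ↥(chevD4.group (KK r))}

/-- the data of a pair of positive roots -/
structure AB (f : TorForm m y) (a b : Fin 4 → ℤ) : Prop where
  ra : IsRoot coxeterD4.toCoxeterSystem RGDTwD4.hp.isCartan a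
  rb : IsRoot coxeterD4.toCoxeterSystem RGDTwD4.hp.isCartan b
  rab : IsRoot coxeterD4.toCoxeterSystem RGDTwD4.hp.isCartan (a + b)
  pa : 0 ≤ a
  pb : 0 ≤ b
  six : ∀ c, c ∈ Sx coxeterD4.toCoxeterSystem RGDTwD4.hp.isCartan (ch RGDTwD4.hp) f.t ↔ Six a b c
  th : (f.θ a = a ∧ f.θ b = b) ∨ (f.θ a = b ∧ f.θ b = a)

theorem exists_AB (f : TorForm m y) (hg : m.g = tri) (hy : A2Elt m y) :
    ∃ a b, AB f a b ∧ (q = 2 → y ^ 7 = 1 → f.θ a = a ∧ f.θ b = b) := by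
  obtain ⟨a, b, h1, h2, h3, h4, h5, h6, h7, h8⟩ := exists_ab f hg hy
  exact ⟨a, b, ⟨h1, h2, h3, h4, h5, h6, h7⟩, h8⟩

variable {f : TorForm m y} {a b : Fin 4 → ℤ} (h : AB f a b)

include h

theorem AB.fix : f.θ (a + b) = a + b := by
  rw [map_add]
  rcases h.th with ⟨h1, h2⟩ | ⟨h1, h2⟩
  · rw [h1, h2]
  · rw [h1, h2, add_comm]

theorem AB.pos3 {c : Fin 4 → ℤ} (hc : Six a b c) (h0 : 0 ≤ c) : c = a ∨ c = b ∨ c = a + b := by
  have hab0 : 0 ≤ a + b := add_nonneg h.pa h.pb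
  rcases hc with h1 | h1 | h1 | h1 | h1 | h1
  · exact Or.inl h1
  · exact absurd (neg_nonpos.2 h.pa) (by rw [← h1]; exact fun h' => (h1 ▸ h.ra.neg : IsRoot _ _ c).not_pos_neg h0 h')
  · exact Or.inr (Or.inl h1)
  · exact absurd (neg_nonpos.2 h.pb) (by rw [← h1]; exact fun h' => (h1 ▸ h.rb.neg : IsRoot _ _ c).not_pos_neg h0 h')
  · exact Or.inr (Or.inr h1)
  · exact absurd (neg_nonpos.2 hab0) (by rw [← h1]; exact fun h' => (h1 ▸ h.rab.neg : IsRoot _ _ c).not_pos_neg h0 h')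

theorem AB.top : Top coxeterD4.toCoxeterSystem RGDTwD4.hp.isCartan (ch RGDTwD4.hp) f.θ f.t (a + b) where
  mem := (h.six _).2 (Or.inr (Or.inr (Or.inr (Or.inr (Or.inl rfl)))))
  pos := add_nonneg h.pa h.pb
  fix := h.fix
  top := by
    intro c hc h0 hr
    obtain ⟨va, hva, hva'⟩ := mem_pos coxeterD4.toCoxeterSystem h.ra h.pa
    obtain ⟨vb, hvb, hvb'⟩ := mem_pos coxeterD4.toCoxeterSystem h.rb h.pb
    obtain ⟨vc, hvc, hvc'⟩ := mem_pos coxeterD4.toCoxeterSystem h.rab (add_nonneg h.pa h.pb)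
    obtain ⟨vd, hvd, hvd'⟩ := mem_pos coxeterD4.toCoxeterSystem hr (add_nonneg (add_nonneg h.pa h.pb) h0)
    have hc' := h.pos3 ((h.six c).1 hc) h0
    rcases hc' with rfl | rfl | rfl
    · refine no2 va hva vb hvb ?_
      have e : (va.add vb).add va = vd := fn_inj (by rw [fn_add, fn_add, hva', hvb', hvd'])
      rw [e]; exact hvd
    · refine no2 vb hvb va hva ?_
      have e : (vb.add va).add vb = vd := fn_inj (by rw [fn_add, fn_add, hva', hvb', hvd']; abel)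
      rw [e]; exact hvd
    · refine no3 vc hvc ?_
      have e : vc.add vc = vd := fn_inj (by rw [fn_add, hvc', hvd'])
      rw [e]; exact hvd

theorem AB.img : ImgK q (Xb (Xj RGDTwD4.hp (k := KK r)) f.α (a + b)) (Xb (Xj RGDTwD4.hp (k := KK r)) f.α (-(a + b))) := by
  have hI := imgK_fr (hp := RGDTwD4.hp) m.he f.frob f.fr h.rab h.fix
  rw [m.hq] at hI
  rw [Xb_eq, Xb_eq]
  exact hI

omit h in
/-- the frame -/
noncomputable abbrev KF (f : TorForm m y) : Subgroup ↥(chevD4.group (KK r)) :=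
  KW coxeterD4.toCoxeterSystem RGDTwD4.hp.isCartan (Tj RGDTwD4.hp (k := KK r)) (Xj RGDTwD4.hp (k := KK r))
    (ch RGDTwD4.hp) f.α f.t

theorem AB.base (hcore : Cfsg.pCore r ↥(KF f) = ⊥) :
    H398.RG.Base r (KF f) (Xb (Xj RGDTwD4.hp (k := KK r)) f.α (a + b)) (Xb (Xj RGDTwD4.hp (k := KK r)) f.α (-(a + b)))
      (PP0 coxeterD4.toCoxeterSystem RGDTwD4.hp.isCartan (Xj RGDTwD4.hp (k := KK r)) (ch RGDTwD4.hp) f.α f.t)
      (QQ0 coxeterD4.toCoxeterSystem RGDTwD4.hp.isCartan (Xj RGDTwD4.hp (k := KK r)) (ch RGDTwD4.hp) f.α f.t)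
      (TL (Tj RGDTwD4.hp (k := KK r)) ⊓ Cfsg.fixedSubgroup f.α) := by
  have := finite_W RGDTwD4.hp coxeterD4.toCoxeterSystem
  exact baseW (tow (k := KK r) RGDTwD4.hp coxeterD4.toCoxeterSystem (locFin r) r) coordK f.frK f.cw h.top m.hq.symm
    h.img.img hcore

/-- the condition for `q ≥ 4` -/
theorem AB.cond4 [Finite ↥(KF f)] (hcore : Cfsg.pCore r ↥(KF f) = ⊥) (hq : 4 ≤ q) :
    Cond (KF f) (Xb (Xj RGDTwD4.hp (k := KK r)) f.α (a + b)) (Xb (Xj RGDTwD4.hp (k := KK r)) f.α (-(a + b))) := by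
  have B := h.base hcore
  have hI := h.img
  obtain ⟨F, _, _, φ, hF, hφ, -⟩ := hI.range
  obtain ⟨k, hk, hY⟩ := B.conjY
  refine cond_of_perfect B.leX (hY ▸ cj_le_MK hk) B.pgrp ?_
  rw [← hφ]
  exact LFourA.KlOAbs.range_perfect (by rw [Nat.card_eq_fintype_card, hF]; omega) φ

/-- the condition for the linear case -/
theorem AB.condL [Finite ↥(KF f)] (hcore : Cfsg.pCore r ↥(KF f) = ⊥) (hq : q.Prime) (hθ : f.θ a = a) (hθb : f.θ b = b) :
    Cond (KF f) (Xb (Xj RGDTwD4.hp (k := KK r)) f.α (a + b)) (Xb (Xj RGDTwD4.hp (k := KK r)) f.α (-(a + b))) := by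
  have := finite_W RGDTwD4.hp coxeterD4.toCoxeterSystem
  have B := h.base hcore
  have hI := h.img
  obtain ⟨k, hk, hY⟩ := B.conjY
  have hc := cpr_sum_one coxeterD4.toCoxeterSystem h.ra h.rb h.rab h.pa h.pb
  have H := tow (k := KK r) RGDTwD4.hp coxeterD4.toCoxeterSystem (locFin r) r
  have Dt := f.cw
  refine cond_L H Dt.hA Dt.ht (noThree_of_SL (slD _)) (c := a) h.rab ((h.six a).2 (Or.inl rfl)) hc.1 hc.2 ?_ hθ
    (fun u => mem_Xb) (fun u hu => mem_Xb.1 hu) hq hI.img.card B.leX ?_ (hY ▸ cj_le_MK hk) le_sup_left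
  · intro c hc hθc
    have hI2 := imgK_fr (hp := RGDTwD4.hp) m.he f.frob f.fr hc.1 hθc
    have h3 := hI2.img.ne_bot
    obtain ⟨x, hx⟩ := Subgroup.ne_bot_iff_exists_ne_one.1 h3
    refine ⟨x, ?_, fun h4 => hx (Subtype.ext h4), x.2.2⟩
    rw [XL_eq RGDTwD4.hp (locFin r)]
    exact x.2.1
  · intro hb
    apply B.ne
    rw [← hY] at hb
    rw [eq_bot_iff]
    intro x hx
    have h4 : k * x * k⁻¹ ∈ H398.RG.cj k (Xb (Xj RGDTwD4.hp (k := KK r)) f.α (a + b)) := conj_mem_cj' hx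
    rw [hb, Subgroup.mem_bot] at h4
    rw [Subgroup.mem_bot]
    have h5 : x = k⁻¹ * (k * x * k⁻¹) * k := by group
    rw [h5, h4]
    group

/-- the condition for `q = 3`, swapped -/
theorem AB.condS [Finite ↥(KF f)] (hcore : Cfsg.pCore r ↥(KF f) = ⊥) (hq : q = 3) (h1 : f.θ a = b) (h2 : f.θ b = a) :
    Cond (KF f) (Xb (Xj RGDTwD4.hp (k := KK r)) f.α (a + b)) (Xb (Xj RGDTwD4.hp (k := KK r)) f.α (-(a + b))) := by
  have := finite_W RGDTwD4.hp coxeterD4.toCoxeterSystem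
  have B := h.base hcore
  obtain ⟨k, hk, hY⟩ := B.conjY
  have hs := slD coxeterD4.toCoxeterSystem
  have hr3 : r = 3 := by
    have e1 : r ^ m.e = 3 := m.hq.trans hq
    have e2 : r ∣ 3 := by
      rw [← e1]
      exact dvd_pow_self r m.he.ne'
    exact (Nat.prime_dvd_prime_iff_eq hr.out Nat.prime_three).1 e2
  have he : r ^ m.e = r := m.hq.trans (hq.trans hr3.symm)
  have hc := cpr_sum_one coxeterD4.toCoxeterSystem h.ra h.rb h.rab h.pa h.pb
  have hba : cpr coxeterD4.toCoxeterSystem RGDTwD4.hp.isCartan b a = -1 := by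
    have h7 := cpr_add coxeterD4.toCoxeterSystem RGDTwD4.hp.isCartan a b h.ra
    rw [cpr_self coxeterD4.toCoxeterSystem _ h.ra, hc.2] at h7
    omega
  refine H380.RG.condZ (hp := RGDTwD4.hp) (cs := coxeterD4.toCoxeterSystem) hr3 f.frob he f.fr (H380.RG.lg_of_sl (hp := RGDTwD4.hp) hs h.ra)
    (H380.RG.lg_of_sl (hp := RGDTwD4.hp) hs h.rb) hba h1 h2 ?_ ?_ (hY ▸ cj_le_MK hk) ?_
  · intro u
    rw [Xb_eq]
    exact Iff.rfl
  · intro u
    rw [Xb_eq]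
    exact Iff.rfl
  · intro g₁ hg₁ g₂ hg₂ g₃ hg₃ hα
    refine B.leP ⟨?_, hα⟩
    have hX : ∀ c, Six a b c → 0 ≤ c → XX chevD4 4 (KK r) c ≤
        Up coxeterD4.toCoxeterSystem RGDTwD4.hp.isCartan (Xj RGDTwD4.hp (k := KK r)) (ch RGDTwD4.hp) f.t := by
      intro c hc h0
      rw [← XL_eq RGDTwD4.hp (locFin r)]
      exact RGD.le_Sup (S := SP coxeterD4.toCoxeterSystem RGDTwD4.hp.isCartan (ch RGDTwD4.hp) f.t) ⟨(h.six c).2 hc, h0⟩
    exact mul_mem (mul_mem (hX a (Or.inl rfl) h.pa hg₁) (hX b (Or.inr (Or.inr (Or.inl rfl))) h.pb hg₂))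
      (hX (a + b) (Or.inr (Or.inr (Or.inr (Or.inr (Or.inl rfl))))) (add_nonneg h.pa h.pb) hg₃)

/-- **The condition.** -/
theorem AB.cond [Finite ↥(KF f)] (hcore : Cfsg.pCore r ↥(KF f) = ⊥) (h2 : q = 2 → f.θ a = a ∧ f.θ b = b) :
    Cond (KF f) (Xb (Xj RGDTwD4.hp (k := KK r)) f.α (a + b)) (Xb (Xj RGDTwD4.hp (k := KK r)) f.α (-(a + b))) := by
  have hq2 := two_le_q m
  by_cases h4 : 4 ≤ q
  · exact h.cond4 hcore h4
  · have h5 : q = 2 ∨ q = 3 := by omega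
    rcases h5 with h5 | h5
    · exact h.condL hcore (h5 ▸ Nat.prime_two) (h2 h5).1 (h2 h5).2
    · rcases h.th with ⟨h6, h7⟩ | ⟨h6, h7⟩
      · exact h.condL hcore (h5 ▸ Nat.prime_three) h6 h7
      · exact h.condS hcore h5 h6 h7

end

end Cfsg.Agent.H922.RG
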