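import Cfsg.Agent.H922.RG.PhiL
import Cfsg.Agent.H169.RG.Toral
import Cfsg.Agent.H28.RG.Form

/-!
# S3509, `³D₄(q)`: the centralisers in the torus of type `Φ₁₂` (helper922)

`m : MData RGDTwD4.hp r q K₀`, `f : TorForm m s`, `θ⁴ + 1 = θ²`:
* `cent_le` : an element fixed by `α` and commuting with `1 ≠ t₁ ∈ TT^α` lies in `TT`;
* `card_cent` : `|Y^σ ∩ C(s₁)| ≤ q⁴ - q² + 1` for all `1 ≠ s₁ ∈ ⟨s⟩`;
* `pow12` : `s ^ (q⁴ - q² + 1) = 1`.
-/

set_option autoImplicit false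
set_option linter.unusedSectionVars false

namespace Cfsg.Agent.H922.RG

open CoxeterSystem Cfsg Cfsg.Lie Cfsg.Lie.ChevalleyDatum
open Cfsg.Agent.ChevalleyStructure Cfsg.Agent.ChevalleyStructure.Elts Cfsg.Agent.ChevalleyStructure.CoxeterGeom
  Cfsg.Agent.ChevalleyStructure.CoxeterGeomTypes Cfsg.Agent.ChevalleyStructure.NPerm
open Cfsg.Agent.Tits.Roots Cfsg.Agent.Tits.Core Cfsg.Agent.Nodes Cfsg.Agent.Nodes.Reps Cfsg.Agent.Nodes.BNOf
  Cfsg.Agent.Nodes.RGDChev Cfsg.Agent.Nodes.Bruhat Cfsg.Agent.Nodes.NormalForm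
open Cfsg.Agent.KFacts.RgdField Cfsg.Agent.KFacts.RgdChevCoord
open Cfsg.Agent.BpExc Cfsg.Agent.BpExc.TorCent Cfsg.Agent.BpExc.TorChev Cfsg.Agent.BpExc.Tow
  Cfsg.Agent.BpExc.TowChev Cfsg.Agent.BpExc.Fr Cfsg.Agent.BpExc.Pair Cfsg.Agent.BpExc.LangFr Cfsg.Agent.GpExc.Field
  Cfsg.Agent.BpExc.NInst Cfsg.Agent.BpExc.NChev
open Cfsg.Agent.H469.Exc Cfsg.Agent.H316.U6 Cfsg.Agent.H169.RG
open Cfsg.Agent.H129.TorusChar Cfsg.Agent.H129.TriD4

universe u v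

theorem tri_eq : H720.TwFr.permE H720.TwFr.rho4 = tri := by
  ext x i
  show x (H720.TwFr.rho4.symm i) = (![x 3, x 1, x 0, x 2] : Fin 4 → ℤ) i
  fin_cases i <;> rfl

section

variable {r q : ℕ} [hr : Fact r.Prime] {K₀ : Type v} [Group K₀] {m : MData RGDTwD4.hp r q K₀}
  {s : ↥(chevD4.group (KK r))} (f : TorForm m s) (hg : m.g = tri)
  (hΦ : ∀ x, f.θ (f.θ (f.θ (f.θ x))) + x = f.θ (f.θ x))

include hg in
theorem theta_eq (x : Fin 4 → ℤ) : f.θ x = rep coxeterD4.toCoxeterSystem RGDTwD4.hp.isCartan f.w (tri x) := by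
  rw [f.hθ, hg]

/-- the character -/
theorem chi_theta {t₁ : ↥(chevD4.group (KK r))} (ht : t₁ ∈ TT chevD4 (KK r)) (hα : f.α t₁ = t₁) (x : Fin 4 → ℤ) :
    cX RGDTwD4.hp t₁ (f.θ x) = cX RGDTwD4.hp t₁ x ^ q := by
  have h1 := cX_sigma RGDTwD4.hp coxeterD4.toCoxeterSystem f.frob f.fr ht x
  have h2 : (MulAut.conj f.n * m.σ) t₁ = t₁ := hα
  rw [h2, m.hq] at h1
  exact h1

include hg hΦ in
/-- the roots are not trivial on the elements `≠ 1` -/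
theorem eq_one_of_root {t₁ : ↥(chevD4.group (KK r))} (ht : t₁ ∈ TT chevD4 (KK r)) (hα : f.α t₁ = t₁)
    {a : Fin 4 → ℤ} (ha : IsRoot coxeterD4.toCoxeterSystem RGDTwD4.hp.isCartan a) (h : cX RGDTwD4.hp t₁ a = 1) :
    t₁ = 1 := by
  have hmc := isMC_cX RGDTwD4.hp ht
  have key := gen_root (θ := f.θ) (theta_eq f hg) hΦ (P := fun x => cX RGDTwD4.hp t₁ x = 1)
    (fun x y hx hy => by rw [hmc.add, hx, hy, one_mul]) (fun n x hx => by rw [hmc.zsmul, hx, one_zpow])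
    (fun x hx => by rw [chi_theta f ht hα, hx, one_pow]) ha h
  exact cX_inj RGDTwD4.hp ht (one_mem _) fun j => by rw [key, cX_one]

theorem chi12 {t₁ : ↥(chevD4.group (KK r))} (ht : t₁ ∈ TT chevD4 (KK r)) (hα : f.α t₁ = t₁)
    (hΦ : ∀ x, f.θ (f.θ (f.θ (f.θ x))) + x = f.θ (f.θ x)) (x : Fin 4 → ℤ) :
    cX RGDTwD4.hp t₁ x ^ (q ^ 4 - q ^ 2 + 1) = 1 := by
  have hmc := isMC_cX RGDTwD4.hp ht
  have h2 : ∀ y, cX RGDTwD4.hp t₁ (f.θ (f.θ y)) = cX RGDTwD4.hp t₁ y ^ q ^ 2 := by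
    intro y
    rw [chi_theta f ht hα, chi_theta f ht hα, ← pow_mul, pow_two]
  have h4 : cX RGDTwD4.hp t₁ (f.θ (f.θ (f.θ (f.θ x)))) = cX RGDTwD4.hp t₁ x ^ q ^ 4 := by
    rw [h2, h2, ← pow_mul, ← pow_add]
  have h5 := congrArg (cX RGDTwD4.hp t₁) (hΦ x)
  rw [hmc.add, h4, h2] at h5
  have hq2 : q ^ 2 ≤ q ^ 4 := by
    rcases Nat.eq_zero_or_pos q with h | h
    · rw [h]; norm_num
    · exact Nat.pow_le_pow_right h (by norm_num)
  have h6 : cX RGDTwD4.hp t₁ x ^ q ^ 2 ≠ 0 := pow_ne_zero _ (hmc.ne_zero _)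
  apply mul_left_cancel₀ h6
  rw [← pow_add, mul_one]
  have e : q ^ 2 + (q ^ 4 - q ^ 2 + 1) = q ^ 4 + 1 := by omega
  rw [e, pow_succ, h5]

include hg hΦ in
/-- **The centraliser of an element of the torus.** -/
theorem cent_le {t₁ : ↥(chevD4.group (KK r))} (ht : t₁ ∈ TT chevD4 (KK r)) (hα : f.α t₁ = t₁) (h1 : t₁ ≠ 1)
    {c : ↥(chevD4.group (KK r))} (hc : c * t₁ = t₁ * c) (hαc : f.α c = c) : c ∈ TT chevD4 (KK r) := by
  classical
  set cs := coxeterD4.toCoxeterSystem with hcs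
  have hk := locFin r
  have := finite_W RGDTwD4.hp cs
  have hTL := TL_eq (k := KK r) RGDTwD4.hp hk
  have hXL := XL_eq (k := KK r) RGDTwD4.hp hk
  have H := tow (k := KK r) RGDTwD4.hp cs hk r
  have C := coordsL (k := KK r) RGDTwD4.hp cs hk r
  have hG := GG_eq_top (k := KK r) RGDTwD4.hp cs hk
  have C' : Coords cs RGDTwD4.hp.isCartan (TL (Tj RGDTwD4.hp (k := KK r))) (nc RGDTwD4.hp (KK r))
      (XL (Xj RGDTwD4.hp (k := KK r))) (xc RGDTwD4.hp) (ch RGDTwD4.hp) := by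
    rw [hTL, hXL]; exact C
  have F' : Fr cs RGDTwD4.hp.isCartan (TL (Tj RGDTwD4.hp (k := KK r))) (XL (Xj RGDTwD4.hp (k := KK r))) f.α f.θ := by
    rw [hTL, hXL]; exact f.fr
  have hA' : ChAdd cs RGDTwD4.hp.isCartan (TL (Tj RGDTwD4.hp (k := KK r))) (ch (K := KK r) RGDTwD4.hp) := by
    rw [hTL]; exact chAddL RGDTwD4.hp cs hk r
  have hsep : ∀ a, IsRoot cs RGDTwD4.hp.isCartan a → ∃ s ∈ TL (Tj RGDTwD4.hp (k := KK r)),
      ∀ u ∈ XL (Xj RGDTwD4.hp (k := KK r)) a, u * s = s * u → u = 1 := by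
    rw [hTL, hXL]
    exact fun a ha => sep RGDTwD4.hp cs hk r ha
  have hS : ∀ a, a ∉ Sx cs RGDTwD4.hp.isCartan (ch RGDTwD4.hp) t₁ := by
    rintro a ⟨ha, ha1⟩
    refine h1 (eq_one_of_root f hg hΦ ht hα ha ?_)
    rw [cX_root RGDTwD4.hp cs ht ha]
    exact ha1
  obtain ⟨w', u, hu, -, k, hk', hkt, hkα, v, hv, -, -, e⟩ := H28.RG.form_fix H C' F' hG hsep hA'
    (t := t₁) (by rw [hTL]; exact ht) hα (fun a ha _ => absurd ha (hS a)) hc hαc
  have hSP : H28.RG.SP cs RGDTwD4.hp.isCartan (ch (K := KK r) RGDTwD4.hp) t₁ = ∅ :=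
    Set.eq_empty_of_forall_notMem fun a ha => hS a ha.1
  have hbot : H28.RG.Up cs RGDTwD4.hp.isCartan (Xj RGDTwD4.hp (k := KK r)) (ch RGDTwD4.hp) t₁ = ⊥ := by
    rw [H28.RG.Up, hSP, H378.OmD4.Sup_empty]
  rw [hbot, Subgroup.mem_bot] at hu hv
  rw [hu, hv, one_mul, mul_one] at e
  rw [e]
  -- `k` over `w'`
  have hk2 : Rp cs (nsysTT RGDTwD4.hp cs hk r) w' k := by
    have key : ∀ (T : Subgroup ↥(chevD4.group (KK r))) (h1 : NSys coxeterD4 T (nc RGDTwD4.hp (KK r)))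
        (h2 : T = TT chevD4 (KK r)), Rp cs h1 w' k → Rp cs (nsysTT RGDTwD4.hp cs hk r) w' k := by
      intro T h1 h2 h3
      subst h2
      exact h3
    exact key _ _ hTL hk'
  have Fk := H720.TorusReal.fr_conj RGDTwD4.hp cs hk r hk2
  have F1 := Fk.mul f.fr
  have F2 := Fr.mul f.fr Fk
  have hcomm : MulAut.conj k * (MulAut.conj f.n * m.σ) = (MulAut.conj f.n * m.σ) * MulAut.conj k := by
    ext1 y
    have h3 : (MulAut.conj f.n * m.σ) k = k := hkα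
    show k * (MulAut.conj f.n * m.σ) y * k⁻¹ = (MulAut.conj f.n * m.σ) (k * y * k⁻¹)
    rw [map_mul, map_mul, map_inv, h3]
  rw [hcomm] at F1
  have hfr := fr_unique RGDTwD4.hp cs hk r F1 F2
  have hw : ∀ x, rep cs RGDTwD4.hp.isCartan w' (f.θ x) = f.θ (rep cs RGDTwD4.hp.isCartan w' x) :=
    fun x => DFunLike.congr_fun hfr x
  have hmc := isMC_cX RGDTwD4.hp ht
  have hχ : ∀ x, cX RGDTwD4.hp t₁ (rep cs RGDTwD4.hp.isCartan w' x) = cX RGDTwD4.hp t₁ x := by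
    intro x
    have h3 := cX_rp RGDTwD4.hp cs hk r hk2 ht x
    have h4 : k * t₁ * k⁻¹ = t₁ := by rw [hkt, mul_inv_cancel_right]
    rwa [h4] at h3
  have h12 := chi12 f ht hα hΦ
  have hfin : (∀ x, cX RGDTwD4.hp t₁ (-x) = cX RGDTwD4.hp t₁ x) → False := by
    intro h
    apply h1
    refine cX_inj RGDTwD4.hp ht (one_mem _) fun j => ?_
    rw [cX_one]
    have h3 := h (sr j)
    rw [hmc.neg] at h3
    have h0 := hmc.ne_zero (sr j)
    have h4 : cX RGDTwD4.hp t₁ (sr j) ^ 2 = 1 := by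
      rw [pow_two]
      nth_rewrite 1 [← h3]
      exact inv_mul_cancel₀ h0
    have h5 := h12 (sr j)
    have hodd : ∃ n, q ^ 4 - q ^ 2 + 1 = 2 * n + 1 := by
      have h6 : q ^ 4 - q ^ 2 = q ^ 2 * (q ^ 2 - 1) := by
        rw [Nat.mul_sub, mul_one, ← pow_add]
      have h7 : 2 ∣ q ^ 2 * (q ^ 2 - 1) := by
        rcases Nat.even_or_odd q with hq | hq
        · exact Dvd.dvd.mul_right (dvd_pow hq.two_dvd (by norm_num)) _
        · refine Dvd.dvd.mul_left ?_ _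
          have h8 : Odd (q ^ 2) := hq.pow
          obtain ⟨n, hn⟩ := h8
          exact ⟨n, by omega⟩
      obtain ⟨n, hn⟩ := h7
      exact ⟨n, by omega⟩
    obtain ⟨n, hn⟩ := hodd
    rw [hn, pow_add, pow_mul, h4, one_pow, one_mul, pow_one] at h5
    exact h5
  rcases comm_cases (theta_eq f hg) hΦ hw with h | h | h
  · have hw1 : w' = 1 := by
      apply rep_injective (cs := cs) (h := RGDTwD4.hp.isCartan)
      apply LinearMap.ext
      intro x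
      rw [h, map_one, Module.End.one_apply]
    subst hw1
    exact hk2.mem_of_one
  · exact (hfin fun x => by rw [← h, hχ]).elim
  · exact (hfin fun x => by rw [← h, hχ, hχ]).elim

theorem num_pos : 0 < q ^ 4 - q ^ 2 + 1 := Nat.succ_pos _

include hg hΦ in
/-- **The order of the torus.** -/
theorem card_torus : Nat.card {t₁ : ↥(chevD4.group (KK r)) // t₁ ∈ TT chevD4 (KK r) ∧ f.α t₁ = t₁} ≤
    q ^ 4 - q ^ 2 + 1 ∧ Finite {t₁ : ↥(chevD4.group (KK r)) // t₁ ∈ TT chevD4 (KK r) ∧ f.α t₁ = t₁} := by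
  classical
  have ha : IsRoot coxeterD4.toCoxeterSystem RGDTwD4.hp.isCartan (sr 0) :=
    isRoot_sr coxeterD4.toCoxeterSystem RGDTwD4.hp.isCartan 0
  let N := q ^ 4 - q ^ 2 + 1
  have hN : 0 < N := num_pos
  let R : Finset (KK r) := (Polynomial.nthRoots N (1 : KK r)).toFinset
  have hR : R.card ≤ N := (Multiset.toFinset_card_le _).trans (Polynomial.card_nthRoots N 1)
  let φ : {t₁ : ↥(chevD4.group (KK r)) // t₁ ∈ TT chevD4 (KK r) ∧ f.α t₁ = t₁} → ↥R := fun t =>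
    ⟨cX RGDTwD4.hp t.1 (sr 0), by
      rw [Multiset.mem_toFinset, Polynomial.mem_nthRoots hN]
      exact chi12 f t.2.1 t.2.2 hΦ _⟩
  have hφ : Function.Injective φ := by
    rintro ⟨t, ht, hα⟩ ⟨t', ht', hα'⟩ h
    have h1 : cX RGDTwD4.hp t (sr 0) = cX RGDTwD4.hp t' (sr 0) := congrArg Subtype.val h
    have h2 : t * t'⁻¹ = 1 := by
      refine eq_one_of_root f hg hΦ (mul_mem ht (inv_mem ht')) (by rw [map_mul, map_inv, hα, hα']) ha ?_
      rw [cX_mul RGDTwD4.hp ht (inv_mem ht')]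
      have h3 : cX RGDTwD4.hp t' (sr 0) * cX RGDTwD4.hp t'⁻¹ (sr 0) = 1 := by
        rw [← cX_mul RGDTwD4.hp ht' (inv_mem ht'), mul_inv_cancel, cX_one]
      rw [h1, h3]
    exact Subtype.ext (mul_inv_eq_one.1 h2)
  refine ⟨?_, Finite.of_injective φ hφ⟩
  refine (Nat.card_le_card_of_injective φ hφ).trans ?_
  rw [Nat.card_eq_fintype_card, Fintype.card_coe]
  exact hR

/-- the conjugate of a power of `s` -/
theorem zpow_conj {s₁ : ↥(chevD4.group (KK r))} (hs : s₁ ∈ Subgroup.zpowers s) :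
    f.z⁻¹ * s₁ * f.z ∈ TT chevD4 (KK r) ∧ f.α (f.z⁻¹ * s₁ * f.z) = f.z⁻¹ * s₁ * f.z := by
  obtain ⟨n, rfl⟩ := Subgroup.mem_zpowers_iff.1 hs
  have h1 : f.z⁻¹ * s ^ n * f.z = f.t ^ n := by
    have h2 : s ^ n = f.z * f.t ^ n * f.z⁻¹ := by
      conv_lhs => rw [f.eq]
      exact conj_zpow
    rw [h2]
    group
  rw [h1]
  refine ⟨zpow_mem f.mem n, ?_⟩
  rw [map_zpow]
  have h3 : f.α f.t = f.t := f.fix
  rw [h3]

include hg hΦ in
/-- **The centralisers.** -/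
theorem card_cent {s₁ : ↥(chevD4.group (KK r))} (hs : s₁ ∈ Subgroup.zpowers s) (h1 : s₁ ≠ 1) :
    Nat.card ↥(fixedSubgroup m.σ ⊓ Subgroup.centralizer {s₁}) ≤ q ^ 4 - q ^ 2 + 1 := by
  classical
  obtain ⟨ht, hα⟩ := zpow_conj f hs
  have hne : f.z⁻¹ * s₁ * f.z ≠ 1 := by
    intro h
    apply h1
    have h2 : s₁ = f.z * (f.z⁻¹ * s₁ * f.z) * f.z⁻¹ := by group
    rw [h2, h]
    group
  obtain ⟨hc, hfin⟩ := card_torus f hg hΦ
  let φ : ↥(fixedSubgroup m.σ ⊓ Subgroup.centralizer {s₁}) →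
      {t₁ : ↥(chevD4.group (KK r)) // t₁ ∈ TT chevD4 (KK r) ∧ f.α t₁ = t₁} := fun y =>
    ⟨f.z⁻¹ * y * f.z, by
      have h3 : f.α (f.z⁻¹ * y * f.z) = f.z⁻¹ * y * f.z := (f.fix_iff _).2 y.2.1
      refine ⟨cent_le f hg hΦ ht hα hne ?_ h3, h3⟩
      have h4 : (y : ↥(chevD4.group (KK r))) * s₁ = s₁ * y := Subgroup.mem_centralizer_singleton_iff.1 y.2.2
      calc f.z⁻¹ * y * f.z * (f.z⁻¹ * s₁ * f.z) = f.z⁻¹ * (y * s₁) * f.z := by group
        _ = f.z⁻¹ * (s₁ * y) * f.z := by rw [h4]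
        _ = _ := by group⟩
  have hφ : Function.Injective φ := by
    intro y y' h
    have h2 : f.z⁻¹ * (y : ↥(chevD4.group (KK r))) * f.z = f.z⁻¹ * y' * f.z := congrArg Subtype.val h
    exact Subtype.ext (mul_left_cancel (mul_right_cancel h2))
  exact (Nat.card_le_card_of_injective φ hφ).trans hc

include hΦ in
theorem pow12 : s ^ (q ^ 4 - q ^ 2 + 1) = 1 := by
  have h1 : f.t ^ (q ^ 4 - q ^ 2 + 1) = 1 := by
    refine cX_inj RGDTwD4.hp (pow_mem f.mem _) (one_mem _) fun j => ?_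
    rw [cX_pow RGDTwD4.hp f.mem, cX_one]
    exact chi12 f f.mem f.fix hΦ _
  rw [f.eq, conj_pow, h1]
  group

end

end Cfsg.Agent.H922.RG
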