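import Cfsg.Agent.H922.RG.PhiA
import Cfsg.Agent.H694.RG.Trans
import Cfsg.Agent.H345.RG.Fpr
import Cfsg.Agent.H867.RC.Spor
import Cfsg.Agent.H992.TC.Torus

/-!
# S3509, `³D₄(q)`: no covers by elements of the torus of type `Φ₁₂` (helper922)

* `triv_count` : `|C_N(x i)| ≤ c`, `k c ≤ d`, `MinDeg N d`, `k` members: no cover;
* `not_cov12` : no cover by elements `≠ 1` of `⟨s⟩`, of different primes, if `f : TorForm m s` is of type `Φ₁₂`.
-/

set_option autoImplicit false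
set_option linter.unusedSectionVars false
open Cfsg

namespace Cfsg.Agent.H922.RG

open MulAction Subgroup Cfsg.Agent.H106.RC Cfsg.Agent.H345.RG Cfsg.Lie
open Cfsg.Agent.H469.Exc Cfsg.Agent.H316.U6 Cfsg.Agent.H169.RG Cfsg.Agent.H129.TriD4
open Cfsg.Agent.Nodes Cfsg.Agent.BpExc.LangFr

/-- **Trivial count.** -/
theorem triv_count {G Ω : Type} [Group G] [Finite G] [MulAction G Ω] [Finite Ω] [Nonempty Ω] {N : Subgroup G}
    (hE : Env G Ω N) {K₀ : Type} [Group K₀] [Finite K₀] (e : N ≃* K₀) {d c : ℕ} (hd : H514.DP.MinDeg K₀ d)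
    {ι : Type} [Finite ι] {x : ι → G} (hc : ∀ i, Nat.card ↥(N ⊓ centralizer ({x i} : Set G)) ≤ c)
    (hk : Nat.card ι * c ≤ d) (hcov : Cov Ω x) : False := by
  classical
  have := Fintype.ofFinite ι
  have hperf : commutator N = ⊤ := H368.RC.perfect_of_simple hE.simple hE.ncomm
  have hdN : H514.DP.MinDeg N d := H368.RC.minDeg_surj hd e.symm.toMonoidHom e.symm.surjective
  have hbig : Big Ω N (d + 1) := fun ω =>
    Cfsg.Agent.H867.RC.le_orbit hE (fun H hH => H917.FP.index_ge hperf hdN hH) ω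
  have hm : (0 : ℚ) < (d + 1 : ℕ) := by exact_mod_cast Nat.succ_pos d
  refine dead_of_sum hcov (fun _ => (c : ℚ) / (d + 1 : ℕ)) (fun i => ?_) ?_
  · refine (F1 (Nat.succ_pos d) hbig hE.norm (x i)).trans ?_
    exact div_le_div_of_nonneg_right (by exact_mod_cast hc i) hm.le
  · rw [Finset.sum_const, Finset.card_univ, nsmul_eq_mul, ← mul_div_assoc, div_lt_one hm]
    rw [Nat.card_eq_fintype_card] at hk
    have h1 : (Fintype.card ι * c : ℕ) < d + 1 := Nat.lt_succ_of_le hk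
    exact_mod_cast h1

theorem prod_ge {ι : Type} [Fintype ι] {r : ι → ℕ} (h : ∀ i, 5 ≤ r i) : 5 ^ Fintype.card ι ≤ ∏ i, r i := by
  rw [← Finset.card_univ, ← Finset.prod_const]
  exact Finset.prod_le_prod' fun i _ => h i

/-- different primes at least five dividing `n`: their number -/
theorem five_pow_le {ι : Type} [Fintype ι] {r : ι → ℕ} (hr : ∀ i, (r i).Prime) (hinj : Function.Injective r) {n : ℕ}
    (hn : 0 < n) (h : ∀ i, r i ∣ n) (h5 : ∀ i, 5 ≤ r i) : 5 ^ Fintype.card ι ≤ n := by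
  classical
  refine (prod_ge h5).trans (Nat.le_of_dvd hn ?_)
  refine Finset.prod_dvd_of_isRelPrime (fun i _ j _ hij => ?_) fun i _ => h i
  exact Nat.coprime_iff_isRelPrime.1 ((Nat.coprime_primes (hr i) (hr j)).2 fun h => hij (hinj h))

theorem lt_five_pow {q : ℕ} (hq : 2 ≤ q) : q ^ 4 < 5 ^ (q + 1) := by
  rcases Nat.lt_or_ge q 3 with h3 | h3
  · have : q = 2 := by omega
    subst this
    norm_num
  · induction q, h3 using Nat.le_induction with
    | base => norm_num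
    | succ n hn ih =>
      have ih' := ih (by omega)
      have h1 : (3 * (n + 1)) ^ 4 ≤ (4 * n) ^ 4 := Nat.pow_le_pow_left (by omega) 4
      have h2 : (n + 1) ^ 4 ≤ 5 * n ^ 4 := by
        rw [mul_pow, mul_pow] at h1
        omega
      calc (n + 1) ^ 4 ≤ 5 * n ^ 4 := h2
        _ < 5 * 5 ^ (n + 1) := by omega
        _ = 5 ^ (n + 1 + 1) := by ring

theorem five_le {q t : ℕ} (ht : t.Prime) (h : t ∣ q ^ 4 - q ^ 2 + 1) : 5 ≤ t := by
  have h1 : (q ^ 4 - q ^ 2 + 1) % 6 = 1 := by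
    rcases Nat.eq_zero_or_pos q with hq | hq
    · rw [hq]; norm_num
    · exact H992.TC.F4_mod q hq
  have h2 : t ≠ 2 := by
    rintro rfl
    omega
  have h3 : t ≠ 3 := by
    rintro rfl
    omega
  have h4 : t ≠ 4 := by
    rintro rfl
    norm_num at ht
  have := ht.two_le
  omega

section

variable {G Ω : Type} [Group G] [Finite G] [MulAction G Ω] [Finite Ω] [Nonempty Ω] {N : Subgroup G}
  (hE : Env G Ω N) {r q : ℕ} [hr : Fact r.Prime] {K₀ : Type} [Group K₀] [Finite K₀] (e : N ≃* K₀)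
  (m : MData RGDTwD4.hp r q K₀)

/-- centralisers -/
theorem card_le12 {g : G} (hgN : g ∈ N) :
    Nat.card ↥(N ⊓ centralizer ({g} : Set G)) ≤
      Nat.card ↥(fixedSubgroup m.σ ⊓ centralizer ({m.ι (e ⟨g, hgN⟩)} : Set _)) := by
  classical
  have := m.fin
  have hfin : Finite ↥(fixedSubgroup m.σ ⊓ centralizer ({m.ι (e ⟨g, hgN⟩)} : Set _)) :=
    Finite.of_injective (Subgroup.inclusion inf_le_left) (Subgroup.inclusion_injective inf_le_left)
  refine Nat.card_le_card_of_injective (fun c : ↥(N ⊓ centralizer ({g} : Set G)) =>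
    (⟨m.ι (e ⟨c.1, c.2.1⟩), m.fix _, ?_⟩ : ↥(fixedSubgroup m.σ ⊓ centralizer ({m.ι (e ⟨g, hgN⟩)} : Set _)))) ?_
  · show m.ι (e ⟨c.1, c.2.1⟩) ∈ centralizer ({m.ι (e ⟨g, hgN⟩)} : Set _)
    rw [mem_centralizer_singleton_iff]
    have h1 : (c.1 : G) * g = g * c.1 := mem_centralizer_singleton_iff.1 c.2.2
    have h2 : (⟨c.1, c.2.1⟩ : N) * ⟨g, hgN⟩ = ⟨g, hgN⟩ * ⟨c.1, c.2.1⟩ := Subtype.ext h1
    have h3 := congrArg (fun y => m.ι (e y)) h2
    simpa only [map_mul] using h3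
  · intro c c' h
    have h1 : m.ι (e ⟨c.1, c.2.1⟩) = m.ι (e ⟨c'.1, c'.2.1⟩) := congrArg Subtype.val h
    have h2 := e.injective (m.inj h1)
    exact Subtype.ext (congrArg (fun y : N => (y : G)) h2)

include hE in
/-- **No covers by elements of a torus of type `Φ₁₂`.** -/
theorem not_cov12 (hd : H514.DP.MinDeg K₀ (q * (q ^ 4 - q ^ 2 + 1))) (hg : m.g = tri) {ι : Type} [Finite ι]
    {x : ι → G} {ρ : ι → ℕ} (hx : PF x ρ) {s : G} (hs : s ∈ N) (hxs : ∀ i, x i ∈ zpowers s)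
    (f : TorForm m (m.ι (e ⟨s, hs⟩))) (hΦ : ∀ v, f.θ (f.θ (f.θ (f.θ v))) + v = f.θ (f.θ v)) (hcov : Cov Ω x) :
    False := by
  classical
  have := Fintype.ofFinite ι
  have hN : ∀ i, x i ∈ N := fun i => (zpowers_le.2 hs) (hxs i)
  have hz : ∀ i, m.ι (e ⟨x i, hN i⟩) ∈ zpowers (m.ι (e ⟨s, hs⟩)) := by
    intro i
    obtain ⟨n, hn⟩ := mem_zpowers_iff.1 (hxs i)
    refine mem_zpowers_iff.2 ⟨n, ?_⟩
    rw [← map_zpow, ← map_zpow]
    congr 2
    exact Subtype.ext hn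
  have hne : ∀ i, m.ι (e ⟨x i, hN i⟩) ≠ 1 := by
    intro i h
    apply hx.ne i
    have h1 : e ⟨x i, hN i⟩ = 1 := m.inj (h.trans (map_one _).symm)
    have h2 : (⟨x i, hN i⟩ : N) = 1 := e.injective (h1.trans (map_one _).symm)
    exact congrArg Subtype.val h2
  have hq2 : 2 ≤ q := by
    have h1 := m.hq
    have h2 := m.he
    have h3 := hr.out.two_le
    calc 2 ≤ r := h3
      _ = r ^ 1 := (pow_one r).symm
      _ ≤ r ^ m.e := Nat.pow_le_pow_right (by omega) h2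
      _ = q := h1
  have hpow : ∀ i, x i ^ (q ^ 4 - q ^ 2 + 1) = 1 := by
    intro i
    obtain ⟨n, hn⟩ := mem_zpowers_iff.1 (hxs i)
    have h1 := pow12 f hΦ
    rw [← map_pow, ← map_pow] at h1
    have h2 : e (⟨s, hs⟩ ^ (q ^ 4 - q ^ 2 + 1)) = 1 := m.inj (h1.trans (map_one _).symm)
    have h3 : (⟨s, hs⟩ : N) ^ (q ^ 4 - q ^ 2 + 1) = 1 := e.injective (h2.trans (map_one _).symm)
    have h4 : s ^ (q ^ 4 - q ^ 2 + 1) = 1 := congrArg Subtype.val h3
    rw [← hn, ← zpow_natCast, ← zpow_mul, mul_comm, zpow_mul, zpow_natCast, h4, one_zpow]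
  have hdvd : ∀ i, ρ i ∣ q ^ 4 - q ^ 2 + 1 := by
    intro i
    have : Fact (ρ i).Prime := ⟨hx.prime i⟩
    rw [← orderOf_eq_prime (hx.pow i) (hx.ne i)]
    exact orderOf_dvd_of_pow_eq_one (hpow i)
  have hcard : Nat.card ι ≤ q := by
    have h1 := five_pow_le hx.prime hx.inj (Nat.succ_pos (q ^ 4 - q ^ 2)) hdvd
      (fun i => five_le (hx.prime i) (hdvd i))
    have h2 := lt_five_pow hq2
    by_contra hcon
    push Not at hcon
    rw [Nat.card_eq_fintype_card] at hcon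
    have h3 : 5 ^ (q + 1) ≤ 5 ^ Fintype.card ι := Nat.pow_le_pow_right (by norm_num) hcon
    have h4 : q ^ 4 - q ^ 2 + 1 ≤ q ^ 4 := by
      have h5 : 1 ≤ q ^ 2 := Nat.one_le_pow _ _ (by omega)
      have h6 : q ^ 2 ≤ q ^ 4 := Nat.pow_le_pow_right (by omega) (by norm_num)
      omega
    have h5 : q ^ 4 - q ^ 2 + 1 = (q ^ 4 - q ^ 2).succ := rfl
    omega
  exact triv_count hE e hd (c := q ^ 4 - q ^ 2 + 1)
    (fun i => (card_le12 e m (hN i)).trans (card_cent f hg hΦ (hz i) (hne i)))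
    (Nat.mul_le_mul_right _ hcard) hcov

end

end Cfsg.Agent.H922.RG
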