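import Cfsg.Agent.H378.OmD4Tor

/-!
# S3509, `³D₄(q)`: the lattice statements for the torus `Φ₁₂` (helper922)

`θ = w · tri` with `θ⁴ + 1 = θ²`:
* `gen_root` : a `θ`-stable subgroup containing a root is everything;
* `comm_cases` : an element of the Weyl group commuting with `θ` is `1`, `-1` or has square `-1`.
-/

set_option autoImplicit false
set_option linter.unusedSectionVars false

namespace Cfsg.Agent.H922.RG

open CoxeterSystem Cfsg Cfsg.Lie Cfsg.Lie.ChevalleyDatum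
open Cfsg.Agent.ChevalleyStructure Cfsg.Agent.ChevalleyStructure.Elts Cfsg.Agent.ChevalleyStructure.CoxeterGeom
  Cfsg.Agent.ChevalleyStructure.CoxeterGeomTypes Cfsg.Agent.ChevalleyStructure.NPerm
open Cfsg.Agent.Tits.Roots Cfsg.Agent.Nodes
open Cfsg.Agent.H378.OmD4 Cfsg.Agent.H129.TriD4

universe v

/-- the relation for a matrix -/
def P12 (F : Mx) : Prop := ∀ j : Fin 4, (F.ap (F.ap (F.ap (F.ap (bas j))))).add (bas j) = F.ap (F.ap (bas j))

instance (F : Mx) : Decidable (P12 F) := inferInstanceAs (Decidable (∀ _ : Fin 4, _))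

theorem p12_rep : ∀ i : Fin 7, P12 (reps i) → i = 3 := by decide +kernel

theorem det_rep : ∀ v ∈ pos, IsU (det4 v ((reps 3).ap v) ((reps 3).ap ((reps 3).ap v))
    ((reps 3).ap ((reps 3).ap ((reps 3).ap v)))) := by decide +kernel

/-- the matrix of the Weyl group element -/
def wm (F : Mx) : Mx := F.mul (T.mul T)

/-- the elements commuting with `reps 3` -/
theorem comm_rep : ∀ e ∈ Tab, (∀ j : Fin 4, (wm e.1).ap ((reps 3).ap (bas j)) = (reps 3).ap ((wm e.1).ap (bas j))) →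
    (∀ j : Fin 4, (wm e.1).ap (bas j) = bas j) ∨ (∀ j : Fin 4, (wm e.1).ap (bas j) = (bas j).sm (-1)) ∨
      ∀ j : Fin 4, (wm e.1).ap ((wm e.1).ap (bas j)) = (bas j).sm (-1) := by decide +kernel

variable {W : Type v} [Group W] (cs : CoxeterSystem coxeterD4 W)

theorem isM_wm {e : Mx} {w : W} (h : H378.OmD4.IsM e (fun x => rep cs RGDTwD4.hp.isCartan w (tri x))) :
    H378.OmD4.IsM (wm e) (fun x => rep cs RGDTwD4.hp.isCartan w x) := by
  have h1 := h.mul (isM_tri.mul isM_tri)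
  intro v
  refine Eq.trans ?_ (h1 v)
  show rep cs RGDTwD4.hp.isCartan w v.fn = rep cs RGDTwD4.hp.isCartan w (tri (tri (tri v.fn)))
  have h2 : ∀ x : Fin 4 → ℤ, tri (tri (tri x)) = x := by
    intro x
    funext i
    rw [tri_apply, tri_apply, tri_apply]
    fin_cases i <;> rfl
  rw [h2]

/-- an additive map is determined by its values at the simple roots -/
theorem eq_of_bas {f g : (Fin 4 → ℤ) →+ (Fin 4 → ℤ)} (h : ∀ j, f (bas j).fn = g (bas j).fn) (x : Fin 4 → ℤ) :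
    f x = g x := by
  have h1 : x = ∑ i, x i • (sr i : Fin 4 → ℤ) := H129.TorusChar.IsMC.eq_sum_sr x
  rw [h1, map_sum, map_sum]
  refine Finset.sum_congr rfl fun i _ => ?_
  rw [map_zsmul, map_zsmul, ← fn_bas, h]

variable {cs}

/-- the conjugate representative of `θ` -/
theorem exists_conj3 {w : W} {θ : (Fin 4 → ℤ) ≃+ (Fin 4 → ℤ)}
    (hθ : ∀ x, θ x = rep cs RGDTwD4.hp.isCartan w (tri x)) (hΦ : ∀ x, θ (θ (θ (θ x))) + x = θ (θ x)) :
    ∃ v : W, H378.OmD4.IsM (reps 3) (fun x => rep cs RGDTwD4.hp.isCartan v (θ (rep cs RGDTwD4.hp.isCartan v⁻¹ x))) := by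
  obtain ⟨v, i, h⟩ := exists_conj_rep cs w
  have h' : H378.OmD4.IsM (reps i) (fun x => rep cs RGDTwD4.hp.isCartan v (θ (rep cs RGDTwD4.hp.isCartan v⁻¹ x))) := by
    intro y
    rw [← h y]
    show rep cs _ v (θ _) = _
    rw [hθ]
  have hP : P12 (reps i) := by
    intro j
    apply fn_inj
    rw [fn_add]
    have e1 : ∀ u : V, ((reps i).ap u).fn = rep cs RGDTwD4.hp.isCartan v (θ (rep cs RGDTwD4.hp.isCartan v⁻¹ u.fn)) :=
      fun u => (h' u).symm
    simp only [e1, rep_inv_apply]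
    have e2 := congrArg (rep cs RGDTwD4.hp.isCartan v) (hΦ (rep cs RGDTwD4.hp.isCartan v⁻¹ (bas j).fn))
    rw [map_add] at e2
    rw [← e2]
    congr 1
    rw [← rep_mul_apply, mul_inv_cancel, map_one, Module.End.one_apply]
  have hi := p12_rep i hP
  subst hi
  exact ⟨v, h'⟩

/-- **A stable subgroup containing a root is everything.** -/
theorem gen_root {w : W} {θ : (Fin 4 → ℤ) ≃+ (Fin 4 → ℤ)}
    (hθ : ∀ x, θ x = rep cs RGDTwD4.hp.isCartan w (tri x)) (hΦ : ∀ x, θ (θ (θ (θ x))) + x = θ (θ x))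
    {P : (Fin 4 → ℤ) → Prop} (hadd : ∀ x y, P x → P y → P (x + y)) (hsm : ∀ (n : ℤ) x, P x → P (n • x))
    (hst : ∀ x, P x → P (θ x)) {a : Fin 4 → ℤ} (ha : IsRoot cs RGDTwD4.hp.isCartan a) (h : P a) (x : Fin 4 → ℤ) :
    P x := by
  obtain ⟨v, hv⟩ := exists_conj3 hθ hΦ
  have K : KK (reps 3) (fun u => P (rep cs RGDTwD4.hp.isCartan v⁻¹ u.fn)) := by
    refine ⟨fun u u' hu hu' => ?_, fun n u hu => ?_, fun u hu => ?_⟩
    · rw [fn_add, map_add]
      exact hadd _ _ hu hu'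
    · rw [fn_sm, map_zsmul]
      exact hsm _ _ hu
    · rw [← hv u]
      show P (rep cs RGDTwD4.hp.isCartan v⁻¹ (rep cs RGDTwD4.hp.isCartan v _))
      rw [rep_inv_apply]
      exact hst _ hu
  have key : ∀ b, IsRoot cs RGDTwD4.hp.isCartan b → 0 ≤ b → P (rep cs RGDTwD4.hp.isCartan v⁻¹ b) →
      ∀ u : V, P (rep cs RGDTwD4.hp.isCartan v⁻¹ u.fn) := by
    intro b hb h0 hPb u
    obtain ⟨y, hy, rfl⟩ := mem_pos cs hb h0
    exact K.of_det hPb (K.ap _ hPb) (K.ap _ (K.ap _ hPb)) (K.ap _ (K.ap _ (K.ap _ hPb))) (det_rep y hy) u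
  have hva := ha.act v
  have hall : ∀ u : V, P (rep cs RGDTwD4.hp.isCartan v⁻¹ u.fn) := by
    rcases hva.pos_or_neg with h0 | h0
    · refine key _ hva h0 ?_
      rwa [rep_inv_apply]
    · refine key _ hva.neg (neg_nonneg.2 h0) ?_
      rw [map_neg, rep_inv_apply]
      have := hsm (-1) a h
      rwa [neg_smul, one_smul] at this
  obtain ⟨u, hu⟩ := exists_fn (rep cs RGDTwD4.hp.isCartan v x)
  have h2 := hall u
  rwa [hu, rep_inv_apply] at h2

/-- **The centraliser of `θ` in the Weyl group.** -/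
theorem comm_cases {w : W} {θ : (Fin 4 → ℤ) ≃+ (Fin 4 → ℤ)}
    (hθ : ∀ x, θ x = rep cs RGDTwD4.hp.isCartan w (tri x)) (hΦ : ∀ x, θ (θ (θ (θ x))) + x = θ (θ x)) {w' : W}
    (hc : ∀ x, rep cs RGDTwD4.hp.isCartan w' (θ x) = θ (rep cs RGDTwD4.hp.isCartan w' x)) :
    (∀ x, rep cs RGDTwD4.hp.isCartan w' x = x) ∨ (∀ x, rep cs RGDTwD4.hp.isCartan w' x = -x) ∨
      ∀ x, rep cs RGDTwD4.hp.isCartan w' (rep cs RGDTwD4.hp.isCartan w' x) = -x := by
  obtain ⟨v, hv⟩ := exists_conj3 hθ hΦ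
  obtain ⟨e, he, he1⟩ := exists_tab cs (v * w' * v⁻¹)
  have h1 := isM_wm cs he1
  have e1 : ∀ x, rep cs RGDTwD4.hp.isCartan (v * w' * v⁻¹) x = rep cs RGDTwD4.hp.isCartan v
      (rep cs RGDTwD4.hp.isCartan w' (rep cs RGDTwD4.hp.isCartan v⁻¹ x)) := by
    intro x
    rw [rep_mul_apply, rep_mul_apply]
  have hG : ∀ u : V, ((wm e.1).ap u).fn = rep cs RGDTwD4.hp.isCartan v
      (rep cs RGDTwD4.hp.isCartan w' (rep cs RGDTwD4.hp.isCartan v⁻¹ u.fn)) := by
    intro u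
    rw [← h1 u]
    exact e1 _
  have hF : ∀ u : V, ((reps 3).ap u).fn = rep cs RGDTwD4.hp.isCartan v (θ (rep cs RGDTwD4.hp.isCartan v⁻¹ u.fn)) :=
    fun u => (hv u).symm
  have hcomm : ∀ j : Fin 4, (wm e.1).ap ((reps 3).ap (bas j)) = (reps 3).ap ((wm e.1).ap (bas j)) := by
    intro j
    apply fn_inj
    rw [hG, hF, hF, hG, rep_inv_apply, rep_inv_apply, hc]
  have hback : ∀ (φ : (Fin 4 → ℤ) →+ (Fin 4 → ℤ)) (c : ℤ),
      (∀ j : Fin 4, rep cs RGDTwD4.hp.isCartan v (φ (rep cs RGDTwD4.hp.isCartan v⁻¹ (bas j).fn)) = c • (bas j).fn) →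
      ∀ x, φ x = c • x := by
    intro φ c h x
    obtain ⟨y, rfl⟩ : ∃ y, x = rep cs RGDTwD4.hp.isCartan v⁻¹ y := ⟨rep cs RGDTwD4.hp.isCartan v x, (rep_inv_apply ..).symm⟩
    have h2 := eq_of_bas (f := ((rep cs RGDTwD4.hp.isCartan v).toAddMonoidHom.comp
      (φ.comp (rep cs RGDTwD4.hp.isCartan v⁻¹).toAddMonoidHom))) (g := (zsmulAddGroupHom c)) (fun j => h j) y
    have h3 : rep cs RGDTwD4.hp.isCartan v (φ (rep cs RGDTwD4.hp.isCartan v⁻¹ y)) = c • y := h2
    have h4 := congrArg (rep cs RGDTwD4.hp.isCartan v⁻¹) h3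
    rw [rep_inv_apply, map_zsmul] at h4
    exact h4
  rcases comm_rep e he hcomm with h | h | h
  · left
    intro x
    have := hback (rep cs RGDTwD4.hp.isCartan w').toAddMonoidHom 1 (fun j => by
      have h2 := congrArg V.fn (h j)
      rw [hG] at h2
      rw [one_smul]
      exact h2) x
    rw [one_smul] at this
    exact this
  · right; left
    intro x
    have := hback (rep cs RGDTwD4.hp.isCartan w').toAddMonoidHom (-1) (fun j => by
      have h2 := congrArg V.fn (h j)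
      rw [hG, fn_sm] at h2
      exact h2) x
    rw [neg_smul, one_smul] at this
    exact this
  · right; right
    intro x
    have := hback ((rep cs RGDTwD4.hp.isCartan w').toAddMonoidHom.comp (rep cs RGDTwD4.hp.isCartan w').toAddMonoidHom)
      (-1) (fun j => by
      have h2 := congrArg V.fn (h j)
      rw [hG, hG, rep_inv_apply, fn_sm] at h2
      exact h2) x
    rw [neg_smul, one_smul] at this
    exact this

end Cfsg.Agent.H922.RG
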