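import Cfsg.Agent.H922.RG.SpL
import Cfsg.Agent.H922.RG.PhiA

/-!
# S3509, `³D₄(q)`: elements of the centre of the stable subgroups of type `A₂` (helper922)

`m : MData RGDTwD4.hp r q K₀`, `f : TorForm m s` not of type `Φ₁₂` :
* `exists_tprime` : `1 ≠ t' ∈ TT^α`, `t' ^ ℓ = 1`, `ℓ ≥ 5` prime, the roots trivial on `t'` are `± a, ± b, ± (a + b)`;
* `Sx_conj` : conjugate elements of the torus are conjugate under the Weyl group;
* `exists_sprime` : the same for `s' ∈ Y^σ` and all its toral forms.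
-/

set_option autoImplicit false
set_option linter.unusedSectionVars false

namespace Cfsg.Agent.H922.RG

open CoxeterSystem Cfsg Cfsg.Lie Cfsg.Lie.ChevalleyDatum
open Cfsg.Agent.ChevalleyStructure Cfsg.Agent.ChevalleyStructure.Elts Cfsg.Agent.ChevalleyStructure.CoxeterGeom
  Cfsg.Agent.ChevalleyStructure.CoxeterGeomTypes Cfsg.Agent.ChevalleyStructure.NPerm
open Cfsg.Agent.Tits.Roots Cfsg.Agent.Tits.Core Cfsg.Agent.Nodes Cfsg.Agent.Nodes.Reps Cfsg.Agent.Nodes.BNOf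
  Cfsg.Agent.Nodes.RGDChev Cfsg.Agent.Nodes.Bruhat Cfsg.Agent.Nodes.NormalForm
open Cfsg.Agent.KFacts.RgdField Cfsg.Agent.KFacts.RgdChevCoord
open Cfsg.Agent.BpExc Cfsg.Agent.BpExc.TorCent Cfsg.Agent.BpExc.TorChev Cfsg.Agent.BpExc.Tow
  Cfsg.Agent.BpExc.TowChev Cfsg.Agent.BpExc.Fr Cfsg.Agent.BpExc.Pair Cfsg.Agent.BpExc.LangFr Cfsg.Agent.GpExc.Field
  Cfsg.Agent.BpExc.NInst Cfsg.Agent.BpExc.NChev
open Cfsg.Agent.H469.Exc Cfsg.Agent.H316.U6 Cfsg.Agent.H169.RG
open Cfsg.Agent.H129.TorusChar Cfsg.Agent.H129.TriD4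
open Cfsg.Agent.H378.OmD4 (V Mx bas pos reps Tab fn_add fn_sm exists_fn fn_inj fn_bas exists_tab exists_conj_rep mem_pos)

universe u v

/-! ### coordinates -/

/-- the vector with the coordinates of `x` -/
def ofn (x : Fin 4 → ℤ) : V := ⟨x 0, x 1, x 2, x 3⟩

theorem ofn_fn (x : Fin 4 → ℤ) : (ofn x).fn = x := by
  funext i; fin_cases i <;> rfl

theorem ofn_of (v : V) : ofn v.fn = v := fn_inj (ofn_fn _)

theorem ofn_add (x y : Fin 4 → ℤ) : ofn (x + y) = (ofn x).add (ofn y) := fn_inj (by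
  rw [fn_add, ofn_fn, ofn_fn, ofn_fn])

theorem ap_add (F : Mx) (u v : V) : F.ap (u.add v) = (F.ap u).add (F.ap v) := by
  ext <;> simp only [Mx.ap, V.add] <;> ring

theorem ap_sm (F : Mx) (u : V) (n : ℤ) : F.ap (u.sm n) = (F.ap u).sm n := by
  ext <;> simp only [Mx.ap, V.sm] <;> ring

theorem eq_bas (v : V) : v = (((bas 0).sm v.a).add ((bas 1).sm v.b)).add (((bas 2).sm v.c).add ((bas 3).sm v.d)) := by
  ext <;> simp [bas, V.sm, V.add]

/-- induction over the basis -/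
theorem of_bas {P : V → Prop} (hadd : ∀ u v, P u → P v → P (u.add v)) (hsm : ∀ (n : ℤ) u, P u → P (u.sm n))
    (h : ∀ j, P (bas j)) (v : V) : P v := by
  rw [eq_bas v]
  exact hadd _ _ (hadd _ _ (hsm _ _ (h 0)) (hsm _ _ (h 1))) (hadd _ _ (hsm _ _ (h 2)) (hsm _ _ (h 3)))

theorem of_bas_eq {L₁ L₂ : V → V} (h1 : ∀ u v, L₁ (u.add v) = (L₁ u).add (L₁ v))
    (h2 : ∀ (n : ℤ) u, L₁ (u.sm n) = (L₁ u).sm n) (h3 : ∀ u v, L₂ (u.add v) = (L₂ u).add (L₂ v))
    (h4 : ∀ (n : ℤ) u, L₂ (u.sm n) = (L₂ u).sm n) (h : ∀ j, L₁ (bas j) = L₂ (bas j)) (y : V) : L₁ y = L₂ y :=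
  of_bas (P := fun y => L₁ y = L₂ y) (fun u v hu hv => by rw [h1, h3, hu, hv]) (fun n u hu => by rw [h2, h4, hu]) h y

theorem pos_vec : ∀ w ∈ pos, ∃ j : Fin 24, ∀ i : Fin 4, vec chevD4 4 j.val i = w.fn i := by decide +kernel

theorem isRoot_pos {W : Type*} [Group W] (cs : CoxeterSystem coxeterD4 W) {w : V} (hw : w ∈ pos) :
    IsRoot cs RGDTwD4.hp.isCartan w.fn := by
  obtain ⟨j, hj⟩ := pos_vec w hw
  exact (isRoot_iff RGDTwD4.hp cs _).2 ⟨j.val, j.2, funext hj⟩

theorem t1' {i : Fin 7} (hi : i ≠ 3) (y : V) : ev (lamA i) ((reps i).ap y) = -ev (lamB i) y ∧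
    ev (lamB i) ((reps i).ap y) = ev (lamA i) y - eps i * ev (lamB i) y := by
  refine of_bas (P := fun y => ev (lamA i) ((reps i).ap y) = -ev (lamB i) y ∧
    ev (lamB i) ((reps i).ap y) = ev (lamA i) y - eps i * ev (lamB i) y) ?_ ?_ (t1 i hi) y
  · rintro u v ⟨h1, h2⟩ ⟨h3, h4⟩
    rw [ap_add, ev_add, ev_add, ev_add, ev_add, h1, h2, h3, h4]
    constructor <;> ring
  · rintro n u ⟨h1, h2⟩
    rw [ap_sm, ev_sm, ev_sm, ev_sm, ev_sm, h1, h2]
    constructor <;> ring

theorem t7 : ∀ i : Fin 7, i ≠ 3 → ∃ w ∈ pos, ¬ (w = pa i ∨ w = pb i ∨ w = (pa i).add (pb i)) := by decide +kernel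

/-- the six roots -/
def Six (a b c : Fin 4 → ℤ) : Prop := c = a ∨ c = -a ∨ c = b ∨ c = -b ∨ c = a + b ∨ c = -(a + b)

theorem Six.neg {a b c : Fin 4 → ℤ} (h : Six a b c) : Six a b (-c) := by
  rcases h with rfl | rfl | rfl | rfl | rfl | rfl
  · exact Or.inr (Or.inl rfl)
  · exact Or.inl (neg_neg _)
  · exact Or.inr (Or.inr (Or.inr (Or.inl rfl)))
  · exact Or.inr (Or.inr (Or.inl (neg_neg _)))
  · exact Or.inr (Or.inr (Or.inr (Or.inr (Or.inr rfl))))
  · exact Or.inr (Or.inr (Or.inr (Or.inr (Or.inl (neg_neg _)))))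

theorem six_neg {a b c : Fin 4 → ℤ} : Six a b (-c) ↔ Six a b c :=
  ⟨fun h => by have := h.neg; rwa [neg_neg] at this, Six.neg⟩

/-! ### the existence of `t'` -/

section

variable {r q : ℕ} [hr : Fact r.Prime] {K₀ : Type v} [Group K₀] {m : MData RGDTwD4.hp r q K₀}

theorem two_le_q (m : MData RGDTwD4.hp r q K₀) : 2 ≤ q := by
  have h1 := m.hq
  have h2 := m.he
  have h3 := hr.out.two_le
  calc 2 ≤ r := h3
    _ = r ^ 1 := (pow_one r).symm
    _ ≤ r ^ m.e := Nat.pow_le_pow_right (by omega) h2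
    _ = q := h1

theorem not_dvd_q (m : MData RGDTwD4.hp r q K₀) {l : ℕ} (hl : l.Prime) (hlr : l ≠ r) : ¬ (l : ℤ) ∣ (q : ℤ) := by
  intro h
  have h1 : l ∣ q := by exact_mod_cast h
  rw [← m.hq] at h1
  exact hlr ((Nat.prime_dvd_prime_iff_eq hl hr.out).1 (hl.dvd_of_dvd_pow h1))

variable {s : ↥(chevD4.group (KK r))} (f : TorForm m s) (hg : m.g = tri)

/-- primitive roots of unity -/
theorem exists_prim {l : ℕ} (hl : l.Prime) (hlr : l ≠ r) : ∃ ζ : KK r, IsPrimitiveRoot ζ l := by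
  have hne : (l : KK r) ≠ 0 := by
    intro h
    have h1 := (CharP.cast_eq_zero_iff (KK r) r l).1 h
    exact hlr ((Nat.prime_dvd_prime_iff_eq hr.out hl).1 h1).symm
  have : NeZero (l : KK r) := ⟨hne⟩
  obtain ⟨ζ, hζ⟩ := IsAlgClosed.exists_root (Polynomial.cyclotomic l (KK r)) (by
    rw [Polynomial.degree_cyclotomic]
    exact_mod_cast (Nat.totient_pos.2 hl.pos).ne')
  exact ⟨ζ, Polynomial.isRoot_cyclotomic_iff.1 hζ⟩

include hg in
/-- **The element `t'`.** -/
theorem exists_tprime (h12 : ¬ ∀ x, f.θ (f.θ (f.θ (f.θ x))) + x = f.θ (f.θ x)) (h9 : q = 2 → s ^ 9 ≠ 1) :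
    ∃ (l : ℕ) (ε : ℤ) (t' : ↥(chevD4.group (KK r))) (a b : Fin 4 → ℤ), l.Prime ∧ 5 ≤ l ∧ l ≠ r ∧ (ε = 1 ∨ ε = -1) ∧
      (l : ℤ) ∣ (q : ℤ) ^ 2 + ε * q + 1 ∧ (q = 2 → ε = 1) ∧ t' ∈ TT chevD4 (KK r) ∧ f.α t' = t' ∧ t' ≠ 1 ∧
      t' ^ l = 1 ∧ IsRoot coxeterD4.toCoxeterSystem RGDTwD4.hp.isCartan a ∧
      IsRoot coxeterD4.toCoxeterSystem RGDTwD4.hp.isCartan b ∧
      IsRoot coxeterD4.toCoxeterSystem RGDTwD4.hp.isCartan (a + b) ∧ a ≠ b ∧
      ∀ c, IsRoot coxeterD4.toCoxeterSystem RGDTwD4.hp.isCartan c → (cX RGDTwD4.hp t' c = 1 ↔ Six a b c) := by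
  classical
  set cs := coxeterD4.toCoxeterSystem with hcs
  have hq2 := two_le_q m
  obtain ⟨v, i, hv⟩ := exists_conj_rep cs f.w
  have hv' : ∀ x, rep cs RGDTwD4.hp.isCartan v (f.θ x) = ((reps i).ap (ofn (rep cs RGDTwD4.hp.isCartan v x))).fn := by
    intro x
    have h1 : rep cs RGDTwD4.hp.isCartan v (rep cs RGDTwD4.hp.isCartan f.w (tri (rep cs RGDTwD4.hp.isCartan v⁻¹
      (ofn (rep cs RGDTwD4.hp.isCartan v x)).fn))) = _ := hv (ofn (rep cs RGDTwD4.hp.isCartan v x))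
    rw [ofn_fn, rep_inv_apply, ← theta_eq f hg] at h1
    exact h1
  have hi : i ≠ 3 := by
    rintro rfl
    apply h12
    intro x
    apply rep_injective_apply (cs := cs) (h := RGDTwD4.hp.isCartan) v
    rw [map_add]
    simp only [hv', ofn_of]
    obtain ⟨y, hy⟩ := exists_fn (rep cs RGDTwD4.hp.isCartan v x)
    rw [← hy, ofn_of, ← fn_add]
    congr 1
    refine of_bas_eq (L₁ := fun y => ((reps 3).ap ((reps 3).ap ((reps 3).ap ((reps 3).ap y)))).add y)
      (L₂ := fun y => (reps 3).ap ((reps 3).ap y)) ?_ ?_ ?_ ?_ ?_ y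
    · intro u w
      simp only [ap_add]
      ext <;> simp only [V.add] <;> ring
    · intro n u
      simp only [ap_sm]
      ext <;> simp only [V.add, V.sm] <;> ring
    · intro u w
      simp only [ap_add]
    · intro n u
      simp only [ap_sm]
    · decide +kernel
  -- the prime
  obtain ⟨l, hl, h5, hld, hε2⟩ : ∃ l : ℕ, l.Prime ∧ 5 ≤ l ∧ (l : ℤ) ∣ (q : ℤ) ^ 2 + eps i * q + 1 ∧ (q = 2 → eps i = 1) := by
    rcases eps_cases i hi with h | h
    · obtain ⟨l, hl, h5, hd⟩ := exists_prime_plus hq2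
      refine ⟨l, hl, h5, ?_, fun _ => h⟩
      rw [h]
      have : ((q ^ 2 + q + 1 : ℕ) : ℤ) = (q : ℤ) ^ 2 + 1 * q + 1 := by push_cast; ring
      rw [← this]
      exact_mod_cast hd
    · have hq3 : q ≠ 2 := by
        intro hq
        refine h9 hq ?_
        have hR : ∀ x, cX RGDTwD4.hp f.t (f.θ x) = cX RGDTwD4.hp f.t x ^ q := chi_theta f f.mem f.fix
        have hmc := isMC_cX RGDTwD4.hp f.mem
        have h4 : ∀ x, f.θ (f.θ (f.θ (f.θ x))) + f.θ x = f.θ (f.θ (f.θ x)) + x := by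
          intro x
          apply rep_injective_apply (cs := cs) (h := RGDTwD4.hp.isCartan) v
          rw [map_add, map_add]
          simp only [hv', ofn_of]
          obtain ⟨y, hy⟩ := exists_fn (rep cs RGDTwD4.hp.isCartan v x)
          rw [← hy, ofn_of, ← fn_add, ← fn_add]
          congr 1
          refine of_bas_eq (L₁ := fun y => ((reps i).ap ((reps i).ap ((reps i).ap ((reps i).ap y)))).add ((reps i).ap y))
            (L₂ := fun y => ((reps i).ap ((reps i).ap ((reps i).ap y))).add y) ?_ ?_ ?_ ?_ (t6 i hi h) y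
          · intro u w
            simp only [ap_add]
            ext <;> simp only [V.add] <;> ring
          · intro n u
            simp only [ap_sm]
            ext <;> simp only [V.add, V.sm] <;> ring
          · intro u w
            simp only [ap_add]
            ext <;> simp only [V.add] <;> ring
          · intro n u
            simp only [ap_sm]
            ext <;> simp only [V.add, V.sm] <;> ring
        have h5 : f.t ^ 9 = 1 := by
          refine cX_inj RGDTwD4.hp (pow_mem f.mem _) (one_mem _) fun j => ?_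
          rw [cX_pow RGDTwD4.hp f.mem, cX_one]
          have h6 := congrArg (cX RGDTwD4.hp f.t) (h4 (sr j))
          rw [hmc.add, hmc.add, hR, hR, hR, hR] at h6
          have h0 := hmc.ne_zero (sr j)
          generalize cX RGDTwD4.hp f.t (sr j) = c at h6 h0
          rw [hq] at h6
          have h7 : c ^ 9 * c ^ 9 = c ^ 9 := by
            have e1 : (((c ^ 2) ^ 2) ^ 2) ^ 2 * c ^ 2 = c ^ 9 * c ^ 9 := by ring
            have e2 : ((c ^ 2) ^ 2) ^ 2 * c = c ^ 9 := by ring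
            rw [← e1, h6, e2]
          have h8 : c ^ 9 ≠ 0 := pow_ne_zero _ h0
          exact mul_left_cancel₀ h8 (by rw [h7, mul_one])
        rw [f.eq, conj_pow, h5]
        group
      obtain ⟨l, hl, h5, hd⟩ := exists_prime_minus (q := q) (by omega)
      refine ⟨l, hl, h5, ?_, fun hq => absurd hq hq3⟩
      rw [h]
      have h6 : q ≤ q ^ 2 := by nlinarith
      have : ((q ^ 2 - q + 1 : ℕ) : ℤ) = (q : ℤ) ^ 2 + -1 * q + 1 := by
        push_cast [Nat.cast_sub h6]; ring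
      rw [← this]
      exact_mod_cast hd
  have hε := eps_cases i hi
  have hlr : l ≠ r := by
    rintro rfl
    have h1 : (l : ℤ) ∣ (q : ℤ) := by
      rw [← m.hq]
      push_cast
      exact dvd_pow_self _ m.he.ne'
    have h2 : (l : ℤ) ∣ 1 := by
      have h3 : (l : ℤ) ∣ (q : ℤ) ^ 2 + eps i * q := by
        rw [pow_two]
        exact dvd_add (Dvd.dvd.mul_left h1 _) (Dvd.dvd.mul_left h1 _)
      exact (dvd_add_right h3).1 hld
    have h3 := Int.natAbs_dvd_natAbs.2 h2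
    simp at h3
    omega
  have hlq := not_dvd_q m hl hlr
  obtain ⟨ζ, hζ⟩ := exists_prim (r := r) hl hlr
  have hζ0 : ζ ≠ 0 := hζ.ne_zero hl.ne_zero
  -- the character
  let A : (Fin 4 → ℤ) → ℤ := fun x => ev (lamA i) (ofn (rep cs RGDTwD4.hp.isCartan v x))
  let B : (Fin 4 → ℤ) → ℤ := fun x => ev (lamB i) (ofn (rep cs RGDTwD4.hp.isCartan v x))
  have hA : ∀ x y, A (x + y) = A x + A y := fun x y => by
    show ev _ _ = _
    rw [map_add, ofn_add, ev_add]
  have hB : ∀ x y, B (x + y) = B x + B y := fun x y => by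
    show ev _ _ = _
    rw [map_add, ofn_add, ev_add]
  have hAθ : ∀ x, A (f.θ x) = -B x := fun x => by
    show ev _ (ofn _) = _
    rw [hv', ofn_of]
    exact (t1' hi _).1
  have hBθ : ∀ x, B (f.θ x) = A x - eps i * B x := fun x => by
    show ev _ (ofn _) = _
    rw [hv', ofn_of]
    exact (t1' hi _).2
  let φ : (Fin 4 → ℤ) → KK r := fun x => ζ ^ (A x + q * B x)
  have hφ : IsMC φ := by
    refine ⟨?_, fun x y => ?_⟩
    · have h1 : A 0 = 0 := by
        have := hA 0 0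
        rw [add_zero] at this
        omega
      have h2 : B 0 = 0 := by
        have := hB 0 0
        rw [add_zero] at this
        omega
      show ζ ^ (A 0 + q * B 0) = 1
      rw [h1, h2]
      simp
    · show ζ ^ (A (x + y) + q * B (x + y)) = ζ ^ (A x + q * B x) * ζ ^ (A y + q * B y)
      rw [← zpow_add₀ hζ0, hA, hB]
      congr 1
      ring
  obtain ⟨t', ht', hφt⟩ := exists_cX RGDTwD4.hp invC_D4 (by norm_num) hφ (fun j => by
    obtain ⟨b, hb⟩ := IsAlgClosed.exists_pow_nat_eq (φ (sr j)) (n := 2) (by norm_num)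
    exact ⟨b, hb⟩)
  have hζN : ζ ^ ((q : ℤ) ^ 2 + eps i * q + 1) = 1 := (hζ.zpow_eq_one_iff_dvd _).2 hld
  have hφθ : ∀ x, φ (f.θ x) = φ x ^ q := by
    intro x
    show ζ ^ (A (f.θ x) + q * B (f.θ x)) = (ζ ^ (A x + q * B x)) ^ q
    rw [← zpow_natCast, ← zpow_mul, hAθ, hBθ]
    have e : -B x + (q : ℤ) * (A x - eps i * B x) = (A x + q * B x) * q +
        ((q : ℤ) ^ 2 + eps i * q + 1) * (-B x) := by ring
    rw [e, zpow_add₀ hζ0, zpow_mul ζ ((q : ℤ) ^ 2 + eps i * q + 1), hζN, one_zpow, mul_one]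
  have hαt : f.α t' = t' := by
    have hT : f.α t' ∈ TT chevD4 (KK r) := (f.fr.tor t').2 ht'
    refine cX_inj RGDTwD4.hp hT ht' fun j => ?_
    obtain ⟨y, hy⟩ := f.θ.surjective (sr j)
    have h1 := cX_sigma RGDTwD4.hp cs f.frob f.fr ht' y
    have h2 : cX RGDTwD4.hp (f.α t') (f.θ y) = cX RGDTwD4.hp t' y ^ q := by
      rw [m.hq] at h1
      exact h1
    rw [← hy, h2, hφt, hφt, hφθ]
  -- the values
  have hval : ∀ w : V, w ∈ pos → ¬ (w = pa i ∨ w = pb i ∨ w = (pa i).add (pb i)) →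
      ∀ x, ofn (rep cs RGDTwD4.hp.isCartan v x) = w → φ x ≠ 1 := by
    intro w hw hn x hx h1
    have h2 : (l : ℤ) ∣ A x + q * B x := (hζ.zpow_eq_one_iff_dvd _).1 h1
    have hAB : (A x, B x) = (ev (lamA i) w, ev (lamB i) w) := by
      show (ev (lamA i) (ofn (rep cs RGDTwD4.hp.isCartan v x)), ev (lamB i) (ofn (rep cs RGDTwD4.hp.isCartan v x))) = _
      rw [hx]
    have h3 := (t2 i hi w hw).resolve_left hn
    rw [← hAB] at h3
    have hl1 : ¬ (l : ℤ) ∣ 1 := by
      intro h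
      have h3 := Int.natAbs_dvd_natAbs.2 h
      simp at h3
      omega
    have hlε : ¬ (l : ℤ) ∣ 1 + q * eps i := by
      intro h
      have h4 : (l : ℤ) ∣ (q : ℤ) ^ 2 := by
        have e : (q : ℤ) ^ 2 + eps i * q + 1 = (1 + q * eps i) + (q : ℤ) ^ 2 := by ring
        rw [e] at hld
        exact (dvd_add_right h).1 hld
      exact hlq (Int.Prime.dvd_pow' hl h4)
    simp only [List.mem_cons, List.not_mem_nil, or_false, Prod.mk.injEq] at h3
    rcases h3 with ⟨ha, hb⟩ | ⟨ha, hb⟩ | ⟨ha, hb⟩ | ⟨ha, hb⟩ | ⟨ha, hb⟩ | ⟨ha, hb⟩ <;> rw [ha, hb] at h2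
    · exact hl1 (by simpa using h2)
    · exact hl1 (by simpa using h2)
    · exact hlq (by simpa using h2)
    · exact hlq (by simpa using h2)
    · exact hlε h2
    · refine hlε ?_
      have e : (-1 : ℤ) + q * -eps i = -(1 + q * eps i) := by ring
      rw [e, dvd_neg] at h2
      exact h2
  obtain ⟨z1, z2, z3, z4, hpa, hpb, hpab, hne⟩ := t3 i hi
  have hone : ∀ w : V, ev (lamA i) w = 0 → ev (lamB i) w = 0 → ∀ x, ofn (rep cs RGDTwD4.hp.isCartan v x) = w →
      φ x = 1 := by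
    intro w h1 h2 x hx
    show ζ ^ (ev (lamA i) (ofn (rep cs RGDTwD4.hp.isCartan v x)) +
      q * ev (lamB i) (ofn (rep cs RGDTwD4.hp.isCartan v x))) = 1
    rw [hx, h1, h2]
    simp
  have hroot : ∀ w : V, w ∈ pos → IsRoot cs RGDTwD4.hp.isCartan (rep cs RGDTwD4.hp.isCartan v⁻¹ w.fn) :=
    fun w hw => (isRoot_pos cs hw).act _
  have hvv : ∀ x, rep cs RGDTwD4.hp.isCartan v (rep cs RGDTwD4.hp.isCartan v⁻¹ x) = x := fun x => rep_apply_inv ..
  refine ⟨l, eps i, t', rep cs RGDTwD4.hp.isCartan v⁻¹ (pa i).fn, rep cs RGDTwD4.hp.isCartan v⁻¹ (pb i).fn, hl, h5, hlr,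
    hε, hld, hε2, ht', hαt, ?_, ?_, hroot _ hpa, hroot _ hpb, ?_, ?_, ?_⟩
  · intro h1
    obtain ⟨w, hw, hn⟩ := t7 i hi
    refine hval w hw hn (rep cs RGDTwD4.hp.isCartan v⁻¹ w.fn) (by rw [hvv, ofn_of]) ?_
    rw [← hφt, h1, cX_one]
  · refine cX_inj RGDTwD4.hp (pow_mem ht' _) (one_mem _) fun j => ?_
    rw [cX_pow RGDTwD4.hp ht', cX_one, hφt]
    show (ζ ^ (A (sr j) + q * B (sr j))) ^ l = 1
    rw [← zpow_natCast, ← zpow_mul, mul_comm, zpow_mul, zpow_natCast, hζ.pow_eq_one, one_zpow]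
  · rw [← map_add, ← fn_add]
    exact hroot _ hpab
  · intro h
    exact hne (fn_inj (rep_injective_apply (cs := cs) (h := RGDTwD4.hp.isCartan) v⁻¹ h))
  · intro c hc
    have hcases : ∀ c, IsRoot cs RGDTwD4.hp.isCartan c → 0 ≤ rep cs RGDTwD4.hp.isCartan v c →
        (φ c = 1 ↔ c = rep cs RGDTwD4.hp.isCartan v⁻¹ (pa i).fn ∨ c = rep cs RGDTwD4.hp.isCartan v⁻¹ (pb i).fn ∨
          c = rep cs RGDTwD4.hp.isCartan v⁻¹ (pa i).fn + rep cs RGDTwD4.hp.isCartan v⁻¹ (pb i).fn) := by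
      intro c hc h0
      obtain ⟨w, hw, hwc⟩ := mem_pos cs (hc.act v) h0
      have hc' : c = rep cs RGDTwD4.hp.isCartan v⁻¹ w.fn := by rw [hwc, rep_inv_apply]
      have hwo : ofn (rep cs RGDTwD4.hp.isCartan v c) = w := by rw [← hwc, ofn_of]
      constructor
      · intro h1
        by_contra hcon
        refine hval w hw (fun h2 => hcon ?_) c hwo h1
        rcases h2 with h2 | h2 | h2
        · exact Or.inl (by rw [hc', h2])
        · exact Or.inr (Or.inl (by rw [hc', h2]))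
        · exact Or.inr (Or.inr (by rw [hc', h2, fn_add, map_add]))
      · rintro (h1 | h1 | h1)
        · refine hone (pa i) z1 z2 c ?_
          rw [h1, hvv, ofn_of]
        · refine hone (pb i) z3 z4 c ?_
          rw [h1, hvv, ofn_of]
        · refine hone ((pa i).add (pb i)) ?_ ?_ c ?_
          · rw [ev_add, z1, z3, add_zero]
          · rw [ev_add, z2, z4, add_zero]
          · rw [h1, ← map_add, ← fn_add, hvv, ofn_of]
    rw [hφt]
    have key : ∀ c, IsRoot cs RGDTwD4.hp.isCartan c → 0 ≤ rep cs RGDTwD4.hp.isCartan v c →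
        (φ c = 1 ↔ Six (rep cs RGDTwD4.hp.isCartan v⁻¹ (pa i).fn) (rep cs RGDTwD4.hp.isCartan v⁻¹ (pb i).fn) c) := by
      intro c hc h0
      rw [hcases c hc h0]
      constructor
      · rintro (h | h | h)
        · exact Or.inl h
        · exact Or.inr (Or.inr (Or.inl h))
        · exact Or.inr (Or.inr (Or.inr (Or.inr (Or.inl h))))
      · intro h
        have hneg : ∀ w : V, w ∈ pos → c ≠ -rep cs RGDTwD4.hp.isCartan v⁻¹ w.fn := by
          intro w hw h1
          have h2 : rep cs RGDTwD4.hp.isCartan v c = -w.fn := by rw [h1, map_neg, hvv]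
          have h3 : IsRoot cs RGDTwD4.hp.isCartan w.fn := isRoot_pos cs hw
          obtain ⟨p1, p2, p3, p4, -⟩ := pos_fn w hw
          have h4 : 0 ≤ w.fn := by
            intro i
            fin_cases i
            · exact p1
            · exact p2
            · exact p3
            · exact p4
          refine h3.not_pos_neg h4 ?_
          rw [h2] at h0
          exact neg_nonneg.1 h0
        rcases h with h | h | h | h | h | h
        · exact Or.inl h
        · exact absurd h (hneg _ hpa)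
        · exact Or.inr (Or.inl h)
        · exact absurd h (hneg _ hpb)
        · exact Or.inr (Or.inr h)
        · refine absurd ?_ (hneg _ hpab)
          rw [h, fn_add, map_add]
    rcases (hc.act v).pos_or_neg with h0 | h0
    · exact key c hc h0
    · have h0' : 0 ≤ rep cs RGDTwD4.hp.isCartan v (-c) := by
        rw [map_neg]
        exact neg_nonneg.2 h0
      have h1 := key (-c) hc.neg h0'
      rw [hφ.neg, inv_eq_one, six_neg] at h1
      exact h1

end

end Cfsg.Agent.H922.RG
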