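import Cfsg.Agent.H922.RG.SpA
import Cfsg.Agent.H864.TD.Defs

/-!
# S3509, `³D₄(q)`, box T1a: `exists_A2Elt` (helper922)
-/

set_option autoImplicit false
set_option linter.unusedSectionVars false
open Cfsg

namespace Cfsg.Agent.H922.RG

open CoxeterSystem Cfsg.Lie Cfsg.Lie.ChevalleyDatum Cfsg.Agent.H873.RG Cfsg.Agent.H316.U6
open Cfsg.Agent.ChevalleyStructure Cfsg.Agent.ChevalleyStructure.CoxeterGeom
  Cfsg.Agent.ChevalleyStructure.CoxeterGeomTypes Cfsg.Agent.Nodes Cfsg.Agent.Nodes.RGDChev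
  Cfsg.Agent.KFacts.RgdField Cfsg.Agent.KFacts.RgdChevCoord
open Cfsg.Agent.Tits.Roots
open Cfsg.Agent.BpExc Cfsg.Agent.BpExc.TorCent Cfsg.Agent.BpExc.Pair Cfsg.Agent.BpExc.LangFr Cfsg.Agent.H469.Exc
open Cfsg.Agent.H169.RG Cfsg.Agent.H864.TD Cfsg.Agent.H129.TorusChar
open Cfsg.Agent.H720.TwFr (permE rho4)

universe v

variable {r q : ℕ} [hr : Fact r.Prime] {K₀ : Type v} [Group K₀] (m : MData RGDTwD4.hp r q K₀)
  (hg : m.g = permE rho4)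

include hg

/-- **The element `y`**, with its order. -/
theorem exists_y {s : Y4 r} (f : TorForm m s) (h12 : ¬ ∀ v, f.θ (f.θ (f.θ (f.θ v))) + v = f.θ (f.θ v))
    (h9 : q = 2 → s ^ 9 ≠ 1) :
    ∃ (y : Y4 r) (l : ℕ), A2Elt m y ∧ y * s = s * y ∧ l.Prime ∧ 5 ≤ l ∧ l ≠ r ∧ y ^ l = 1 ∧ (q = 2 → y ^ 7 = 1) := by
  obtain ⟨l, ε, t', a, b, hl, h5, hlr, hε, hld, hε2, ht', hαt, ht1, htl, ha, hb, hab, hne, hS⟩ :=
    exists_tprime f (hg.trans tri_eq) h12 h9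
  have hpow : ∀ n : ℕ, t' ^ n = 1 → (f.z * t' * f.z⁻¹) ^ n = 1 := by
    intro n hn
    rw [conj_pow, hn, mul_one, mul_inv_cancel]
  refine ⟨f.z * t' * f.z⁻¹, l, ⟨(f.fix_iff' t').2 hαt, ?_, ⟨l, hl, hlr, hpow l htl⟩, f.z, t', a, b, ht', rfl, hab, ?_⟩, ?_,
    hl, h5, hlr, hpow l htl, ?_⟩
  · intro h
    apply ht1
    have h2 : t' = f.z⁻¹ * (f.z * t' * f.z⁻¹) * f.z := by group
    rw [h2, h]
    group
  · intro x
    constructor
    · rintro ⟨hx, hx1⟩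
      have h1 := (hS x hx).1 (by rw [cX_root RGDTwD4.hp coxeterD4.toCoxeterSystem ht' hx]; exact hx1)
      rcases h1 with h | h | h | h | h | h
      · exact Or.inl h
      · exact Or.inr (Or.inr (Or.inr (Or.inl h)))
      · exact Or.inr (Or.inl h)
      · exact Or.inr (Or.inr (Or.inr (Or.inr (Or.inl h))))
      · exact Or.inr (Or.inr (Or.inl h))
      · exact Or.inr (Or.inr (Or.inr (Or.inr (Or.inr h))))
    · intro h
      have h1 : IsRoot coxeterD4.toCoxeterSystem RGDTwD4.hp.isCartan x ∧ Six a b x := by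
        rcases h with h | h | h | h | h | h
        · exact ⟨h ▸ ha, Or.inl h⟩
        · exact ⟨h ▸ hb, Or.inr (Or.inr (Or.inl h))⟩
        · exact ⟨h ▸ hab, Or.inr (Or.inr (Or.inr (Or.inr (Or.inl h))))⟩
        · exact ⟨h ▸ ha.neg, Or.inr (Or.inl h)⟩
        · exact ⟨h ▸ hb.neg, Or.inr (Or.inr (Or.inr (Or.inl h)))⟩
        · exact ⟨h ▸ hab.neg, Or.inr (Or.inr (Or.inr (Or.inr (Or.inr h))))⟩
      refine ⟨h1.1, ?_⟩
      rw [← cX_root RGDTwD4.hp coxeterD4.toCoxeterSystem ht' h1.1]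
      exact (hS x h1.1).2 h1.2
  · have h1 : t' * f.t = f.t * t' := by
      refine cX_inj RGDTwD4.hp (mul_mem ht' f.mem) (mul_mem f.mem ht') fun j => ?_
      rw [cX_mul RGDTwD4.hp ht' f.mem, cX_mul RGDTwD4.hp f.mem ht', mul_comm]
    have h2 := f.eq
    calc f.z * t' * f.z⁻¹ * s = f.z * t' * f.z⁻¹ * (f.z * f.t * f.z⁻¹) := by rw [← h2]
      _ = f.z * (t' * f.t) * f.z⁻¹ := by group
      _ = f.z * (f.t * t') * f.z⁻¹ := by rw [h1]
      _ = (f.z * f.t * f.z⁻¹) * (f.z * t' * f.z⁻¹) := by group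
      _ = s * (f.z * t' * f.z⁻¹) := by rw [← h2]
  · intro hq
    apply hpow
    have h1 := hε2 hq
    rw [h1, hq] at hld
    have h2 : l ∣ 7 := by exact_mod_cast hld
    have h3 : l = 7 := (Nat.prime_dvd_prime_iff_eq hl (by norm_num)).1 h2
    rw [h3] at htl
    exact htl

/-- **BOX T1a.** -/
theorem exists_A2Elt {s : Y4 r} (hs : m.σ s = s) {d : ℕ} (hd : d.Coprime r) (hsd : s ^ d = 1) :
    (∃ (f : TorForm m s), (∀ v, f.θ (f.θ (f.θ (f.θ v))) + v = f.θ (f.θ v))) ∨ (q = 2 ∧ s ^ 27 = 1) ∨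
      ∃ y, A2Elt m y ∧ y * s = s * y ∧ (q = 2 → y ^ 3 ≠ 1) := by
  have hd0 : d ≠ 0 := by
    rintro rfl
    rw [Nat.coprime_zero_left] at hd
    exact hr.out.one_lt.ne' hd
  obtain ⟨f⟩ := exists_torForm m hs hd0 hd hsd
  by_cases h12 : ∀ v, f.θ (f.θ (f.θ (f.θ v))) + v = f.θ (f.θ v)
  · exact Or.inl ⟨f, h12⟩
  by_cases h9 : q = 2 ∧ s ^ 9 = 1
  · refine Or.inr (Or.inl ⟨h9.1, ?_⟩)
    rw [show 27 = 9 * 3 by norm_num, pow_mul, h9.2, one_pow]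
  obtain ⟨y, l, hy, hys, hl, h5, hlr, hyl, hy7⟩ := exists_y m hg f h12 (fun h h' => h9 ⟨h, h'⟩)
  refine Or.inr (Or.inr ⟨y, hy, hys, fun hq h3 => hy.2.1 ?_⟩)
  have h7 := hy7 hq
  have e : y = y ^ 7 * (y ^ 3 * y ^ 3)⁻¹ := by group
  rw [e, h7, h3]
  group

end Cfsg.Agent.H922.RG
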