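import Cfsg.Agent.H922.RG.PhiL

/-!
# S3509, `³D₄(q)`: stable subsystems of type `A₂`, tables and arithmetic (helper922)

`lamA`, `lamB` : linear forms vanishing on the stable subsystem `⟨pa i, pb i⟩` of `reps i`, `i ≠ 3`, with
`(A, B)(θ x) = (-B, A - ε B)(x)`.
-/

set_option autoImplicit false
set_option linter.unusedSectionVars false

namespace Cfsg.Agent.H922.RG

open CoxeterSystem Cfsg Cfsg.Lie Cfsg.Lie.ChevalleyDatum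
open Cfsg.Agent.ChevalleyStructure Cfsg.Agent.ChevalleyStructure.Elts Cfsg.Agent.ChevalleyStructure.CoxeterGeom
  Cfsg.Agent.ChevalleyStructure.CoxeterGeomTypes Cfsg.Agent.ChevalleyStructure.NPerm
open Cfsg.Agent.Tits.Roots Cfsg.Agent.Nodes
open Cfsg.Agent.H378.OmD4 Cfsg.Agent.H129.TriD4

universe v

/-- evaluation of a linear form -/
def ev (a x : V) : ℤ := a.a * x.a + a.b * x.b + a.c * x.c + a.d * x.d

theorem ev_add (a x y : V) : ev a (x.add y) = ev a x + ev a y := by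
  simp only [ev, V.add]; ring

theorem ev_sm (a x : V) (n : ℤ) : ev a (x.sm n) = n * ev a x := by
  simp only [ev, V.sm]; ring

def lamA : Fin 7 → V
  | 0 => ⟨-1, 0, 0, 1⟩
  | 1 => ⟨-1, 0, 0, 1⟩
  | 2 => ⟨-1, 0, 0, 1⟩
  | 3 => ⟨0, 0, 0, 0⟩
  | 4 => ⟨0, 0, -1, 0⟩
  | 5 => ⟨0, 0, -1, 0⟩
  | 6 => ⟨-1, 0, 1, 0⟩

def lamB : Fin 7 → V
  | 0 => ⟨0, 0, -1, 1⟩
  | 1 => ⟨0, 1, -1, -1⟩
  | 2 => ⟨0, 0, -1, 1⟩
  | 3 => ⟨0, 0, 0, 0⟩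
  | 4 => ⟨0, 0, 1, -1⟩
  | 5 => ⟨0, 0, 1, -1⟩
  | 6 => ⟨-1, 1, 0, -1⟩

def eps : Fin 7 → ℤ
  | 0 => 1
  | 1 => -1
  | 2 => 1
  | 3 => 0
  | 4 => -1
  | 5 => -1
  | 6 => 1

def pa : Fin 7 → V
  | 0 => ⟨0, 1, 0, 0⟩
  | 1 => ⟨1, 1, 0, 1⟩
  | 2 => ⟨0, 1, 0, 0⟩
  | 3 => ⟨0, 0, 0, 0⟩
  | 4 => ⟨1, 0, 0, 0⟩
  | 5 => ⟨1, 0, 0, 0⟩
  | 6 => ⟨1, 1, 1, 0⟩

def pb : Fin 7 → V
  | 0 => ⟨1, 1, 1, 1⟩
  | 1 => ⟨0, 1, 1, 0⟩
  | 2 => ⟨1, 1, 1, 1⟩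
  | 3 => ⟨0, 0, 0, 0⟩
  | 4 => ⟨0, 1, 0, 0⟩
  | 5 => ⟨0, 1, 0, 0⟩
  | 6 => ⟨0, 1, 0, 1⟩

theorem eps_cases : ∀ i : Fin 7, i ≠ 3 → eps i = 1 ∨ eps i = -1 := by decide +kernel

theorem t1 : ∀ i : Fin 7, i ≠ 3 → ∀ j : Fin 4, ev (lamA i) ((reps i).ap (bas j)) = -ev (lamB i) (bas j) ∧
    ev (lamB i) ((reps i).ap (bas j)) = ev (lamA i) (bas j) - eps i * ev (lamB i) (bas j) := by decide +kernel

theorem t2 : ∀ i : Fin 7, i ≠ 3 → ∀ w ∈ pos, (w = pa i ∨ w = pb i ∨ w = (pa i).add (pb i)) ∨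
    (ev (lamA i) w, ev (lamB i) w) ∈ [((1 : ℤ), (0 : ℤ)), (-1, 0), (0, 1), (0, -1), (1, eps i), (-1, -eps i)] := by
  decide +kernel

theorem t3 : ∀ i : Fin 7, i ≠ 3 → ev (lamA i) (pa i) = 0 ∧ ev (lamB i) (pa i) = 0 ∧ ev (lamA i) (pb i) = 0 ∧
    ev (lamB i) (pb i) = 0 ∧ pa i ∈ pos ∧ pb i ∈ pos ∧ (pa i).add (pb i) ∈ pos ∧ pa i ≠ pb i := by decide +kernel

/-- the relation of the classes with `ε = -1` -/
theorem t6 : ∀ i : Fin 7, i ≠ 3 → eps i = -1 → ∀ j : Fin 4,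
    ((reps i).ap ((reps i).ap ((reps i).ap ((reps i).ap (bas j))))).add ((reps i).ap (bas j)) =
        ((reps i).ap ((reps i).ap ((reps i).ap (bas j)))).add (bas j) := by decide +kernel

theorem t4 : ∀ e ∈ Tab, ∀ u ∈ pos, e.1.ap u = u → ∀ w ∈ pos, e.1.ap w = w → u.add w ∈ pos → ∀ j : Fin 4,
    ∃ c ∈ [(-3 : ℤ), -2, -1, 0, 1, 2, 3], ∃ d ∈ [(-3 : ℤ), -2, -1, 0, 1, 2, 3],
      ((e.1.ap (e.1.ap (bas j))).add (e.1.ap (bas j))).add (bas j) = (u.sm c).add (w.sm d) := by decide +kernel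

theorem t5 : ∀ e ∈ Tab, ∀ u ∈ pos, ∀ w ∈ pos, e.1.ap u = w → e.1.ap w = u → u.add w ∈ pos → ∀ j : Fin 4,
    ∃ c ∈ [(-3 : ℤ), -2, -1, 0, 1, 2, 3], ∃ d ∈ [(-3 : ℤ), -2, -1, 0, 1, 2, 3],
      ((e.1.ap (e.1.ap (bas j))).add ((e.1.ap (bas j)).sm (-1))).add (bas j) = (u.sm c).add (w.sm d) := by
  decide +kernel

theorem pos_fn : ∀ w ∈ pos, 0 ≤ w.a ∧ 0 ≤ w.b ∧ 0 ≤ w.c ∧ 0 ≤ w.d ∧ w ≠ ⟨0, 0, 0, 0⟩ := by decide +kernel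

theorem ne_double : ∀ w ∈ pos, ∀ w' ∈ pos, w.add w ≠ w' := by decide +kernel

/-! ### arithmetic -/

/-- a prime factor at least five -/
theorem exists_prime {N : ℕ} (h2 : ¬ 2 ∣ N) (h9 : ¬ 9 ∣ N) (h3 : 3 < N) : ∃ l : ℕ, l.Prime ∧ 5 ≤ l ∧ l ∣ N := by
  have key : ∀ n : ℕ, ¬ 2 ∣ n → ¬ 3 ∣ n → 1 < n → ∃ l : ℕ, l.Prime ∧ 5 ≤ l ∧ l ∣ n := by
    intro n hn2 hn3 hn
    have hl := Nat.minFac_prime (by omega : n ≠ 1)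
    have hd := Nat.minFac_dvd n
    refine ⟨n.minFac, hl, ?_, hd⟩
    have h1 : n.minFac ≠ 2 := fun h => hn2 (h ▸ hd)
    have h3 : n.minFac ≠ 3 := fun h => hn3 (h ▸ hd)
    have h4 : n.minFac ≠ 4 := by
      intro h
      rw [h] at hl
      norm_num at hl
    have := hl.two_le
    omega
  by_cases hd : 3 ∣ N
  · obtain ⟨n, rfl⟩ := hd
    obtain ⟨l, hl, h5, hln⟩ := key n (fun h => h2 (Dvd.dvd.mul_left h 3)) (fun h => h9 (by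
      obtain ⟨m, rfl⟩ := h
      exact ⟨m, by ring⟩)) (by omega)
    exact ⟨l, hl, h5, Dvd.dvd.mul_left hln 3⟩
  · exact key N h2 hd (by omega)

theorem exists_prime_plus {q : ℕ} (hq : 2 ≤ q) : ∃ l : ℕ, l.Prime ∧ 5 ≤ l ∧ l ∣ q ^ 2 + q + 1 := by
  have h4 : 4 ≤ q ^ 2 := by nlinarith
  apply exists_prime
  · have h : q ^ 2 % 2 = (q % 2) ^ 2 % 2 := Nat.pow_mod q 2 2
    have h' : q % 2 < 2 := Nat.mod_lt _ (by norm_num)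
    generalize hqa : q % 2 = a at h h'
    interval_cases a <;> norm_num at h <;> omega
  · have h : q ^ 2 % 9 = (q % 9) ^ 2 % 9 := Nat.pow_mod q 2 9
    have h' : q % 9 < 9 := Nat.mod_lt _ (by norm_num)
    generalize hqa : q % 9 = a at h h'
    interval_cases a <;> norm_num at h <;> omega
  · omega

theorem exists_prime_minus {q : ℕ} (hq : 3 ≤ q) : ∃ l : ℕ, l.Prime ∧ 5 ≤ l ∧ l ∣ q ^ 2 - q + 1 := by
  have h4 : 3 * q ≤ q ^ 2 := by nlinarith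
  apply exists_prime
  · have h : q ^ 2 % 2 = (q % 2) ^ 2 % 2 := Nat.pow_mod q 2 2
    have h' : q % 2 < 2 := Nat.mod_lt _ (by norm_num)
    generalize hqa : q % 2 = a at h h'
    interval_cases a <;> norm_num at h <;> omega
  · have h : q ^ 2 % 9 = (q % 9) ^ 2 % 9 := Nat.pow_mod q 2 9
    have h' : q % 9 < 9 := Nat.mod_lt _ (by norm_num)
    generalize hqa : q % 9 = a at h h'
    interval_cases a <;> norm_num at h <;> omega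
  · omega

end Cfsg.Agent.H922.RG
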